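import Cfsg.Agent.Lib.Ree.SchB
import Cfsg.Agent.Lib.Ree.NE
import Cfsg.Agent.Lib.Ree.RLI

/-! The smallest degree of a nontrivial complex representation of a small Ree group. -/

set_option autoImplicit false
set_option linter.unusedSimpArgs false
set_option linter.unusedVariables false
set_option linter.unusedSectionVars false

namespace Cfsg.Agent.Lib.Ree

open Module

/-- A commuting family of operators over the complex numbers has a common eigenvector in every
nonzero invariant subspace. -/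
theorem exists_common_eig {V : Type*} [AddCommGroup V] [Module ℂ V] [FiniteDimensional ℂ V] {ι : Type*}
    (T : ι → Module.End ℂ V) (hc : ∀ i j, T i * T j = T j * T i) :
    ∀ (n : ℕ) (W : Submodule ℂ V), finrank ℂ W = n → W ≠ ⊥ → (∀ i, ∀ v ∈ W, T i v ∈ W) →
      ∃ v ∈ W, v ≠ 0 ∧ ∀ i, ∃ μ : ℂ, T i v = μ • v := by
  intro n
  induction n using Nat.strong_induction_on with
  | _ n ih =>
    intro W hn hW hinv
    by_cases hall : ∀ i, ∃ μ : ℂ, ∀ v ∈ W, T i v = μ • v
    · obtain ⟨v, hv, hv0⟩ := W.exists_mem_ne_zero_of_ne_bot hW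
      refine ⟨v, hv, hv0, fun i => ?_⟩
      obtain ⟨μ, h⟩ := hall i
      exact ⟨μ, h v hv⟩
    · push Not at hall
      obtain ⟨i₀, hi₀⟩ := hall
      haveI : Nontrivial W := Submodule.nontrivial_iff_ne_bot.mpr hW
      let S : Module.End ℂ W := (T i₀).restrict (hinv i₀)
      obtain ⟨μ, hμ⟩ := Module.End.exists_eigenvalue S
      obtain ⟨w, hw⟩ := hμ.exists_hasEigenvector
      let W' : Submodule ℂ V := W ⊓ LinearMap.ker (T i₀ - μ • 1)
      have hW' : W' ≠ ⊥ := by
        intro hbot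
        have h1 : (w : V) ∈ W' := by
          refine Submodule.mem_inf.mpr ⟨w.2, ?_⟩
          have h2 := hw.apply_eq_smul
          have h3 : (T i₀) (w : V) = μ • (w : V) := congrArg Subtype.val h2
          rw [LinearMap.mem_ker, LinearMap.sub_apply, h3, LinearMap.smul_apply, Module.End.one_apply, sub_self]
        rw [hbot, Submodule.mem_bot] at h1
        exact hw.2 (Subtype.ext h1)
      have hlt : W' < W := by
        refine lt_of_le_of_ne inf_le_left ?_
        intro he
        obtain ⟨v, hv, hne⟩ := hi₀ μ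
        apply hne
        rw [← he] at hv
        have h1 := (Submodule.mem_inf.mp hv).2
        rw [LinearMap.mem_ker, LinearMap.sub_apply, LinearMap.smul_apply, Module.End.one_apply, sub_eq_zero] at h1
        exact h1
      have hn' : finrank ℂ W' < n := hn ▸ Submodule.finrank_lt_finrank_of_lt hlt
      refine (ih _ hn' W' rfl hW' (fun i v hv => Submodule.mem_inf.mpr ⟨hinv i v (Submodule.mem_inf.mp hv).1, ?_⟩)).imp (fun v h => ⟨(Submodule.mem_inf.mp h.1).1, h.2⟩)
      have h1 := (Submodule.mem_inf.mp hv).2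
      rw [LinearMap.mem_ker, LinearMap.sub_apply, LinearMap.smul_apply, Module.End.one_apply, sub_eq_zero] at h1
      rw [LinearMap.mem_ker, LinearMap.sub_apply, LinearMap.smul_apply, Module.End.one_apply, sub_eq_zero]
      have h2 : T i₀ (T i v) = T i (T i₀ v) := by
        have := congrArg (fun F => F v) (hc i₀ i)
        exact this
      rw [h2, h1, map_smul]

/-- Eigenvectors with distinct characters are linearly independent. -/
theorem indep_eig {A : Type*} [Monoid A] {k : ℕ} (π : A → Module.End ℂ (Fin k → ℂ))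
    (hπ : ∀ x y, π (x * y) = π x * π y) (hπ1 : π 1 = 1) {ι : Type*} (v : ι → Fin k → ℂ) (lam : ι → A → ℂ)
    (hv : ∀ i, v i ≠ 0) (he : ∀ i y, π y (v i) = lam i y • v i) (hinj : ∀ i j, (∀ y, lam i y = lam j y) → i = j) :
    LinearIndependent ℂ v := by
  classical
  have hcancel : ∀ i, ∀ a b : ℂ, a • v i = b • v i → a = b := fun i a b h => smul_left_injective ℂ (hv i) h
  let Λ : ι → (A →* ℂ) := fun i =>
    { toFun := lam i
      map_one' := hcancel i _ _ (by rw [← he, hπ1, one_smul]; rfl)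
      map_mul' := fun x y => hcancel i _ _ (by
        rw [← he, hπ, Module.End.mul_apply, he, map_smul, he, smul_smul, mul_comm]) }
  have hΛ : Function.Injective Λ := by
    intro i j h
    exact hinj i j (fun y => DFunLike.congr_fun h y)
  have hli := (linearIndependent_monoidHom A ℂ).comp Λ hΛ
  rw [linearIndependent_iff'] at hli ⊢
  intro s g hg i hi
  obtain ⟨j, hj⟩ := Function.ne_iff.mp (hv i)
  have h1 := hli s (fun i => g i * v i j) (by
    funext y
    have h2 := congrArg (fun w => (π y w) j) hg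
    simp only [map_sum, map_smul, he, Finset.sum_apply, Pi.smul_apply, smul_eq_mul, map_zero, Pi.zero_apply] at h2
    simp only [Finset.sum_apply, Pi.smul_apply, smul_eq_mul, Pi.zero_apply, Function.comp]
    rw [← h2]
    refine Finset.sum_congr rfl (fun a _ => ?_)
    show g a * v a j * lam a y = _
    ring) i hi
  exact (mul_eq_zero.mp h1).resolve_right hj

/-- Averaging over a subgroup of order eight. -/
theorem avg_eight {G : Type*} [Group G] (E : Subgroup G) (hE : Nat.card E = 8) {k : ℕ} (ρ : Representation ℂ G (Fin k → ℂ))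
    (htr : ∀ y ∈ E, y ≠ 1 → LinearMap.trace ℂ (Fin k → ℂ) (ρ y) = 0) : 8 ∣ k := by
  classical
  haveI : Finite E := Nat.finite_of_card_ne_zero (by omega)
  haveI := Fintype.ofFinite E
  let ρ' : Representation ℂ E (Fin k → ℂ) := ρ.comp E.subtype
  haveI : Invertible (Nat.card E : ℂ) := invertibleOfNonzero (by rw [hE]; norm_num)
  have h := Representation.card_inv_mul_sum_char_eq_finrank ρ'
  have h1 : ∑ g : E, ρ'.character g = (k : ℂ) := by
    rw [Finset.sum_eq_single_of_mem (1 : E) (Finset.mem_univ _)]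
    · show LinearMap.trace ℂ (Fin k → ℂ) (ρ ((1 : E) : G)) = _
      simp
    · intro b _ hb
      exact htr b b.2 (fun h => hb (Subtype.ext h))
  rw [h1, hE] at h
  have h2 : (k : ℂ) = ((8 * finrank ℂ (Representation.invariants ρ') : ℕ) : ℂ) := by
    push_cast
    rw [← h]
    push_cast
    ring
  have h3 : k = 8 * finrank ℂ (Representation.invariants ρ') := by exact_mod_cast h2
  exact ⟨_, h3⟩

variable {K : Type*} [Field K] [CharP K 3] {f : K ≃+* K} {G : Type*} [Group G]

namespace RD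

variable (R : RD K f G)

omit [CharP K 3] in
/-- The conjugation formula. -/
theorem T_conj (x : K) (u : Kˣ) (b' c' : K) :
    R.t 0 ((u : K) ^ 3 * (f (u : K))⁻¹ ^ 3 * b') (f (u : K) ^ 3 * c' + x * ((u : K) ^ 3 * (f (u : K))⁻¹ ^ 3 * b')) * (R.t x 0 0 * R.h u) =
      (R.t x 0 0 * R.h u) * R.t 0 b' c' := by
  have h1 := R.h_mul_t u 0 b' c'
  have h2 : (u : K)⁻¹ ^ 3 * f (u : K) ^ 6 * 0 = 0 := by simp
  rw [h2] at h1
  rw [mul_assoc (R.t x 0 0), h1, ← mul_assoc, ← mul_assoc (R.t x 0 0)]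
  congr 1
  rw [R.t_mul, R.t_mul]
  congr 1 <;> simp <;> ring

theorem h_neg (x : K) (u : Kˣ) : R.h (-1) * (R.t x 0 0 * R.h u) = R.t (-x) 0 0 * R.h (-u) := by
  have h1 := R.h_mul_t (-1) x 0 0
  have e1 : (((-1 : Kˣ) : Kˣ) : K)⁻¹ ^ 3 * f (((-1 : Kˣ) : Kˣ) : K) ^ 6 * x = -x := by
    simp only [Units.val_neg, Units.val_one, map_neg, map_one]
    norm_num
  rw [e1] at h1
  simp only [mul_zero] at h1
  rw [← mul_assoc, h1, mul_assoc, ← map_mul]
  simp

variable {k : ℕ} (ρ : Representation ℂ G (Fin k → ℂ))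

variable [Fintype K]

/-- The family of eigenvectors. -/
theorem lin_fam {c₀ : K} (hc₀ : ρ (R.t 0 0 c₀) ≠ 1) :
    ∃ v : K × Kˣ → Fin k → ℂ, LinearIndependent ℂ v ∧ ∀ x u, ρ (R.h (-1)) (v (x, u)) = v (-x, -u) := by
  classical
  let T : K × K → Module.End ℂ (Fin k → ℂ) := fun y => ρ (R.t 0 y.1 y.2)
  have hT : ∀ y y', T y * T y' = T (y + y') := by
    intro y y'
    show ρ (R.t 0 y.1 y.2) * ρ (R.t 0 y'.1 y'.2) = ρ (R.t 0 (y.1 + y'.1) (y.2 + y'.2))
    rw [← map_mul, R.t_V2]
  have hTc : ∀ y y', T y * T y' = T y' * T y := by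
    intro y y'
    rw [hT, hT, add_comm]
  let T₀ : Module.End ℂ (Fin k → ℂ) := ρ (R.t 0 0 c₀)
  have hT₀ : T₀ = T (0, c₀) := rfl
  have hT3 : T₀ * (T₀ * T₀) = 1 := by
    show ρ (R.t 0 0 c₀) * (ρ (R.t 0 0 c₀) * ρ (R.t 0 0 c₀)) = 1
    rw [← map_mul, ← map_mul]
    have e : R.t 0 0 c₀ * (R.t 0 0 c₀ * R.t 0 0 c₀) = R.t 0 0 c₀ ^ 3 := by
      rw [pow_succ, pow_two, mul_assoc]
    rw [e, R.t_cube]
    have e2 : -((0 : K) ^ 2 * f 0 ^ 3) = 0 := by simp
    rw [e2, R.t_zero, map_one]
  let W : Submodule ℂ (Fin k → ℂ) := LinearMap.range (T₀ - 1)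
  have hW : W ≠ ⊥ := by
    intro h
    apply hc₀
    have h1 : T₀ - 1 = 0 := LinearMap.range_eq_bot.mp h
    exact sub_eq_zero.mp h1
  have hinv : ∀ y, ∀ w ∈ W, T y w ∈ W := by
    rintro y _ ⟨w, rfl⟩
    refine ⟨T y w, ?_⟩
    have h1 : (T₀ - 1) * T y = T y * (T₀ - 1) := by
      rw [sub_mul, mul_sub, hT₀, hTc, one_mul, mul_one]
    exact congrArg (fun F => F w) h1
  obtain ⟨v, hvW, hv0, hμ⟩ := exists_common_eig T hTc _ W rfl hW hinv
  choose χ hχ using hμ
  have hcancel : ∀ a b : ℂ, a • v = b • v → a = b := fun a b h => smul_left_injective ℂ hv0 h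
  have hχadd : ∀ y y', χ (y + y') = χ y * χ y' := by
    intro y y'
    apply hcancel
    rw [← hχ, ← hT, Module.End.mul_apply, hχ, map_smul, hχ, smul_smul, mul_comm]
  have hχ0 : χ 0 = 1 := by
    apply hcancel
    rw [← hχ, one_smul]
    show ρ (R.t 0 0 0) v = v
    rw [R.t_zero, map_one]
    rfl
  have hχne : ∀ y, χ y ≠ 0 := by
    intro y h
    have h1 := hχadd y (-y)
    rw [add_neg_cancel, hχ0, h, zero_mul] at h1
    exact one_ne_zero h1
  have hne : χ (0, c₀) ≠ 1 := by
    intro h1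
    have h2 : T₀ v = v := by
      rw [hT₀, hχ, h1, one_smul]
    obtain ⟨w, hw⟩ := hvW
    have h3 : (1 + T₀ + T₀ * T₀) ((T₀ - 1) w) = 0 := by
      have e : (1 + T₀ + T₀ * T₀) * (T₀ - 1) = T₀ * (T₀ * T₀) - 1 := by
        simp only [add_mul, mul_sub, mul_one, one_mul, mul_assoc]
        abel
      have := congrArg (fun F => F w) e
      simp only [hT3, sub_self] at this
      exact this
    rw [hw] at h3
    have h4 : (1 + T₀ + T₀ * T₀) v = (3 : ℂ) • v := by
      simp only [LinearMap.add_apply, Module.End.one_apply, Module.End.mul_apply, h2]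
      rw [show (3 : ℂ) = 1 + 1 + 1 by norm_num, add_smul, add_smul, one_smul]
    rw [h4] at h3
    exact hv0 ((smul_eq_zero.mp h3).resolve_left (by norm_num))
  -- the family
  let g : K × Kˣ → G := fun i => R.t i.1 0 0 * R.h i.2
  let Wb : Kˣ → K := fun u => (u : K) ^ 3 * (f (u : K))⁻¹ ^ 3
  let Wc : Kˣ → K := fun u => f (u : K) ^ 3
  have hWb : ∀ u, Wb u ≠ 0 := by
    intro u
    exact mul_ne_zero (pow_ne_zero _ u.ne_zero) (pow_ne_zero _ (inv_ne_zero ((map_ne_zero f).mpr u.ne_zero)))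
  have hWc : ∀ u, Wc u ≠ 0 := fun u => pow_ne_zero _ ((map_ne_zero f).mpr u.ne_zero)
  let lam : K × Kˣ → Multiplicative (K × K) → ℂ := fun i y =>
    χ ((Multiplicative.toAdd y).1 / Wb i.2, ((Multiplicative.toAdd y).2 - i.1 * (Multiplicative.toAdd y).1) / Wc i.2)
  refine ⟨fun i => ρ (g i) v, ?_, ?_⟩
  · refine indep_eig (fun y : Multiplicative (K × K) => T (Multiplicative.toAdd y)) (fun x y => ?_) ?_ _ lam ?_ ?_ ?_
    · rw [toAdd_mul, hT]
    · show ρ (R.t 0 0 0) = 1
      rw [R.t_zero, map_one]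
    · intro i hi
      apply hv0
      have h1 : ρ (g i)⁻¹ (ρ (g i) v) = v := by
        rw [← Module.End.mul_apply, ← map_mul, inv_mul_cancel, map_one]
        rfl
      rw [← h1, hi, map_zero]
    · rintro ⟨x, u⟩ y
      obtain ⟨B, hB⟩ : ∃ B, B = (Multiplicative.toAdd y).1 := ⟨_, rfl⟩
      obtain ⟨C, hC⟩ : ∃ C, C = (Multiplicative.toAdd y).2 := ⟨_, rfl⟩
      have e1 := R.T_conj x u (B / Wb u) ((C - x * B) / Wc u)
      have e2 : (u : K) ^ 3 * (f (u : K))⁻¹ ^ 3 * (B / Wb u) = B := by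
        show Wb u * (B / Wb u) = B
        field_simp [hWb u]
      have e3 : f (u : K) ^ 3 * ((C - x * B) / Wc u) + x * B = C := by
        show Wc u * ((C - x * B) / Wc u) + x * B = C
        have := hWc u
        field_simp
        ring
      rw [e2, e3] at e1
      show ρ (R.t 0 (Multiplicative.toAdd y).1 (Multiplicative.toAdd y).2) (ρ (R.t x 0 0 * R.h u) v) =
        χ ((Multiplicative.toAdd y).1 / Wb u, ((Multiplicative.toAdd y).2 - x * (Multiplicative.toAdd y).1) / Wc u) • ρ (R.t x 0 0 * R.h u) v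
      rw [← hB, ← hC, ← Module.End.mul_apply, ← map_mul, e1, map_mul, Module.End.mul_apply, ← map_smul]
      congr 1
      exact hχ (B / Wb u, (C - x * B) / Wc u)
    · rintro ⟨x, u⟩ ⟨x', u'⟩ h
      have hΛ : ∀ B C D : K, χ (B, C + D) = χ (B, C) * χ (0, D) := by
        intro B C D
        rw [← hχadd]
        congr 1
        simp
      have hlam : ∀ b c : K, χ (b / Wb u, (c - x * b) / Wc u) = χ (b / Wb u', (c - x' * b) / Wc u') :=
        fun b c => h (Multiplicative.ofAdd (b, c))
      have hu : Wc u = Wc u' := by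
        by_contra hne'
        have hδ : (Wc u)⁻¹ - (Wc u')⁻¹ ≠ 0 := by
          intro h0
          apply hne'
          exact inv_inj.mp (sub_eq_zero.mp h0)
        have h1 := hlam 0 (c₀ / ((Wc u)⁻¹ - (Wc u')⁻¹))
        have e1 : (c₀ / ((Wc u)⁻¹ - (Wc u')⁻¹) - x * 0) / Wc u = (c₀ / ((Wc u)⁻¹ - (Wc u')⁻¹) - x' * 0) / Wc u' + c₀ := by
          simp only [mul_zero, sub_zero]
          rw [div_eq_mul_inv _ (Wc u), div_eq_mul_inv _ (Wc u')]
          generalize (Wc u)⁻¹ = A at hδ ⊢
          generalize (Wc u')⁻¹ = A' at hδ ⊢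
          field_simp
          ring
        rw [e1, zero_div, zero_div, hΛ] at h1
        exact hne (mul_left_cancel₀ (hχne _) (h1.trans (mul_one _).symm))
      have huu : u = u' := by
        apply Units.ext
        have : RD.tau f (u : K) = RD.tau f (u' : K) := hu
        have h1 : RD.tau f (u : K) - RD.tau f (u' : K) = 0 := sub_eq_zero.mpr this
        have h2 : RD.tau f ((u : K) - u') = 0 := by
          rw [sub_eq_add_neg, RD.tau_add, RD.tau_neg, ← sub_eq_add_neg]
          exact h1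
        by_contra hne'
        exact RD.tau_ne_zero f (sub_ne_zero.mpr hne') h2
      subst huu
      have hxx : x = x' := by
        by_contra hne'
        have hδ : x' - x ≠ 0 := sub_ne_zero.mpr (Ne.symm hne')
        have h3 := hWc u
        have h1 := hlam (c₀ * Wc u / (x' - x)) 0
        have e1 : (0 - x * (c₀ * Wc u / (x' - x))) / Wc u = (0 - x' * (c₀ * Wc u / (x' - x))) / Wc u + c₀ := by
          field_simp
          ring
        rw [e1, hΛ] at h1
        exact hne (mul_left_cancel₀ (hχne _) (h1.trans (mul_one _).symm))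
      rw [hxx]
  · intro x u
    show ρ (R.h (-1)) (ρ (g (x, u)) v) = ρ (g (-x, -u)) v
    rw [← Module.End.mul_apply, ← map_mul]
    show ρ (R.h (-1) * (R.t x 0 0 * R.h u)) v = ρ (R.t (-x) 0 0 * R.h (-u)) v
    rw [R.h_neg]

/-- The final bound. -/
theorem deg_bound (L : RL R) [Finite G] (hsimple : IsSimpleGroup G)
    (hG : Nat.card G = (1 + Fintype.card K ^ 3) * (Fintype.card K ^ 3 * (Fintype.card K - 1)))
    (hq : 2 ≤ Fintype.card K) (hq8 : ¬ 8 ∣ Fintype.card K * (Fintype.card K - 1))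
    (hρ : ∃ g, ρ g ≠ 1) : Fintype.card K * (Fintype.card K - 1) + 1 ≤ k := by
  classical
  -- the centre of the unipotent group acts nontrivially
  obtain ⟨c₀, hc₀⟩ : ∃ c₀, ρ (R.t 0 0 c₀) ≠ 1 := by
    by_contra hall
    push Not at hall
    let φ : G →* Module.End ℂ (Fin k → ℂ) := ρ
    have hn : φ.ker.Normal := inferInstance
    rcases hn.eq_bot_or_eq_top with h | h
    · have h1 : R.t 0 0 1 ∈ φ.ker := by
        rw [MonoidHom.mem_ker]
        exact hall 1
      rw [h, Subgroup.mem_bot] at h1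
      exact one_ne_zero (R.t_eq_one h1).2.2
    · obtain ⟨g, hg⟩ := hρ
      apply hg
      have h1 : g ∈ φ.ker := h ▸ Subgroup.mem_top g
      exact MonoidHom.mem_ker.mp h1
  obtain ⟨v, hv, hperm⟩ := R.lin_fam ρ hc₀
  have hcard : Fintype.card (K × Kˣ) = Fintype.card K * (Fintype.card K - 1) := by
    rw [Fintype.card_prod, Fintype.card_units]
  have hle := hv.fintype_card_le_finrank
  rw [Module.finrank_fin_fun, hcard] at hle
  by_contra hlt
  have hk : k = Fintype.card K * (Fintype.card K - 1) := by omega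
  -- the vectors form a basis
  have hcard' : Fintype.card (K × Kˣ) = finrank ℂ (Fin k → ℂ) := by
    rw [hcard, Module.finrank_fin_fun, hk]
  let b := basisOfLinearIndependentOfCardEqFinrank hv hcard'
  have hb : ∀ i, b i = v i := fun i => by
    simp [b, coe_basisOfLinearIndependentOfCardEqFinrank]
  have htr0 : LinearMap.trace ℂ (Fin k → ℂ) (ρ (R.h (-1))) = 0 := by
    rw [LinearMap.trace_eq_matrix_trace ℂ b, Matrix.trace]
    apply Finset.sum_eq_zero
    rintro ⟨x, u⟩ _
    rw [Matrix.diag_apply, LinearMap.toMatrix_apply, hb, hperm, ← hb, Module.Basis.repr_self, Finsupp.single_apply, if_neg]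
    intro h
    have h1 : (-u : Kˣ) = u := (Prod.ext_iff.mp h).2
    have h2 : (-(u : K)) = u := congrArg Units.val h1
    have h3 : (u : K) * 2 = 0 := by linear_combination -h2
    rcases mul_eq_zero.mp h3 with h4 | h4
    · exact u.ne_zero h4
    · exact RD.two_ne h4
  have htr : ∀ y ∈ L.E, y ≠ 1 → LinearMap.trace ℂ (Fin k → ℂ) (ρ y) = 0 := by
    intro y hy hy1
    obtain ⟨c, hc⟩ := isConj_iff.mp (L.E_conj hG hq hy hy1)
    have e : ρ (c * y * c⁻¹) = ρ c * (ρ y * ρ c⁻¹) := by
      rw [map_mul, map_mul, mul_assoc]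
    rw [← htr0, ← hc, e, LinearMap.trace_mul_comm, mul_assoc, ← map_mul, inv_mul_cancel, map_one, mul_one]
  have h8 := avg_eight L.E L.card_E ρ htr
  rw [hk] at h8
  exact hq8 h8

end RD

end Cfsg.Agent.Lib.Ree
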