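import Cfsg.Agent.Lib.Ree.Tau
import Cfsg.Agent.Lib.Suzuki.MultA

/-! Schur multipliers of the small Ree groups: vanishing of invariant biadditive maps. -/

set_option autoImplicit false
set_option linter.unusedSimpArgs false
set_option linter.unusedVariables false
set_option linter.unusedSectionVars false

namespace Cfsg.Agent.Lib.Ree

section Field

variable {K : Type*} [Field K] [CharP K 3] {M : Type*} [Group M]

theorem sch_three : (3 : K) = 0 := by
  have := CharP.cast_eq_zero K 3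
  exact_mod_cast this

theorem sch_g_one {g : K → M} (h : ∀ x x', g (x + x') = g x * g x') {α β : K} (hne : α ≠ β)
    (he : ∀ x, g (x * α) = g (x * β)) (y : K) : g y = 1 := by
  have hd : α - β ≠ 0 := sub_ne_zero.mpr hne
  have e1 := he (y / (α - β))
  have e2 : y / (α - β) * α = y / (α - β) * β + y := by
    field_simp
    ring
  rw [e2, h] at e1
  exact mul_eq_left.mp e1

theorem sch_inv_add {A B : K} (hA : A ≠ 0) (hB : B ≠ 0) (hAB : A + B ≠ 0) (hne : A ≠ B) :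
    (A + B)⁻¹ ≠ A⁻¹ + B⁻¹ := by
  intro h
  have h3 : (3 : K) = 0 := sch_three
  field_simp at h
  apply hne
  have e : (A - B) ^ 2 = 0 := by linear_combination (-1 : K) * h + (-(A * B)) * h3
  exact sub_eq_zero.mp (pow_eq_zero_iff (two_ne_zero) |>.mp e)

theorem sch_right_zero {κ : K → K → M} (h2 : ∀ x w w', κ x (w + w') = κ x w * κ x w') (x : K) : κ x 0 = 1 := by
  have := h2 x 0 0
  rw [add_zero] at this
  exact mul_eq_left.mp this.symm

/-- All of `Kˣ`. -/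
theorem bi_all (κ : K → K → M) (h1 : ∀ x x' w, κ (x + x') w = κ x w * κ x' w)
    (h2 : ∀ x w w', κ x (w + w') = κ x w * κ x w')
    (hinv : ∀ χ : K, χ ≠ 0 → ∀ x w, κ (χ * x) (χ * w) = κ x w)
    {t : K} (ht0 : t ≠ 0) (ht1 : t ≠ 1) (ht2 : t ≠ -1) (x w : K) : κ x w = 1 := by
  have hg : ∀ x x', κ (x + x') 1 = κ x 1 * κ x' 1 := fun x x' => h1 x x' 1
  have hform : ∀ w, w ≠ 0 → ∀ x, κ x w = κ (x * w⁻¹) 1 := by
    intro w hw x
    have := hinv w⁻¹ (inv_ne_zero hw) x w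
    rw [inv_mul_cancel₀ hw, mul_comm] at this
    exact this.symm
  have ht3 : (1 : K) + t ≠ 0 := by
    intro h
    exact ht2 (by linear_combination h)
  have hg1 : ∀ y, κ y 1 = 1 := by
    apply sch_g_one (g := fun y => κ y 1) hg (α := (1 + t)⁻¹) (β := (1 : K)⁻¹ + t⁻¹)
      (sch_inv_add one_ne_zero ht0 ht3 (Ne.symm ht1))
    intro x
    show κ (x * (1 + t)⁻¹) 1 = κ (x * ((1 : K)⁻¹ + t⁻¹)) 1
    rw [← hform _ ht3, h2, mul_add, hg, ← hform _ one_ne_zero, ← hform _ ht0]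
  by_cases hw : w = 0
  · rw [hw]
    exact sch_right_zero h2 x
  · rw [hform w hw, hg1]

/-- The squares of `Kˣ`. -/
theorem bi_sq (κ : K → K → M) (h1 : ∀ x x' w, κ (x + x') w = κ x w * κ x' w)
    (h2 : ∀ x w w', κ x (w + w') = κ x w * κ x w')
    (hinv : ∀ r : K, r ≠ 0 → ∀ x w, κ (r ^ 2 * x) (r ^ 2 * w) = κ x w)
    (hns : ∀ x : K, x * x ≠ -1)
    {u : K} (hu0 : u ≠ 0) (hu1 : u ≠ 1) (hu2 : u ≠ -1) (x w : K) : κ x w = 1 := by
  have h3 : (3 : K) = 0 := sch_three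
  have hg : ∀ x x', κ (x + x') 1 = κ x 1 * κ x' 1 := fun x x' => h1 x x' 1
  have hform : ∀ r, r ≠ 0 → ∀ x, κ x (r ^ 2) = κ (x * (r ^ 2)⁻¹) 1 := by
    intro r hr x
    have := hinv r⁻¹ (inv_ne_zero hr) x (r ^ 2)
    have e : r⁻¹ ^ 2 * r ^ 2 = 1 := by field_simp
    rw [e, inv_pow, mul_comm] at this
    exact this.symm
  have hw1 : u ^ 2 - 1 ≠ 0 := by
    intro h
    have : (u - 1) * (u + 1) = 0 := by linear_combination h
    rcases mul_eq_zero.mp this with h' | h'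
    · exact hu1 (sub_eq_zero.mp h')
    · exact hu2 (eq_neg_of_add_eq_zero_left h')
  have hr : u ^ 2 + 1 ≠ 0 := by
    intro h
    exact hns u (by linear_combination h)
  have hsum : (u ^ 2 - 1) ^ 2 + u ^ 2 = (u ^ 2 + 1) ^ 2 := by linear_combination (-u ^ 2) * h3
  have hne : (u ^ 2 - 1) ^ 2 ≠ u ^ 2 := by
    intro h
    have e : ((u + 1) * (u + 1) + 1) * ((u - 1) * (u - 1) + 1) = 0 := by
      linear_combination h + (u ^ 2 + 1) * h3
    rcases mul_eq_zero.mp e with h' | h'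
    · exact hns (u + 1) (by linear_combination h')
    · exact hns (u - 1) (by linear_combination h')
  have hg1 : ∀ y, κ y 1 = 1 := by
    apply sch_g_one (g := fun y => κ y 1) hg (α := ((u ^ 2 - 1) ^ 2 + u ^ 2)⁻¹) (β := ((u ^ 2 - 1) ^ 2)⁻¹ + (u ^ 2)⁻¹)
      (sch_inv_add (pow_ne_zero 2 hw1) (pow_ne_zero 2 hu0) (by rw [hsum]; exact pow_ne_zero 2 hr) hne)
    intro x
    show κ (x * ((u ^ 2 - 1) ^ 2 + u ^ 2)⁻¹) 1 = κ (x * (((u ^ 2 - 1) ^ 2)⁻¹ + (u ^ 2)⁻¹)) 1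
    rw [hsum, ← hform _ hr, ← hsum, h2, mul_add, hg, ← hform _ hw1, ← hform _ hu0]
  have hsq : ∀ r, κ x (r ^ 2) = 1 := by
    intro r
    by_cases hr0 : r = 0
    · rw [hr0, zero_pow two_ne_zero]
      exact sch_right_zero h2 x
    · rw [hform r hr0, hg1]
  have e : (w + 1) ^ 2 = w + (w - 1) ^ 2 := by linear_combination w * h3
  have h5 := h2 x w ((w - 1) ^ 2)
  rw [← e, hsq, hsq, mul_one] at h5
  exact h5.symm

/-- The mixed case. -/
theorem bi_ac (f : K ≃+* K) (hf3 : ∀ x, f (f x) ^ 3 = x) (κ : K → K → M) (h1 : ∀ x x' w, κ (x + x') w = κ x w * κ x' w)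
    (h2 : ∀ x w w', κ x (w + w') = κ x w * κ x w')
    (hinv : ∀ w : K, w ≠ 0 → ∀ x c, κ (w * x) (w ^ 2 * f w ^ 3 * c) = κ x c)
    {t : K} (ht0 : t ≠ 0) (ht1 : t ≠ 1) (ht2 : t ≠ -1) (x c : K) : κ x c = 1 := by
  have h3 : (3 : K) = 0 := sch_three
  have hg : ∀ x x', κ (x + x') 1 = κ x 1 * κ x' 1 := fun x x' => h1 x x' 1
  have hform : ∀ c, c ≠ 0 → ∀ x, κ x c = κ (x * (f c ^ 3 / c ^ 2)) 1 := by
    intro c hc x
    have hfc : f c ≠ 0 := (map_ne_zero f).mpr hc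
    have hw : f c ^ 3 / c ^ 2 ≠ 0 := div_ne_zero (pow_ne_zero 3 hfc) (pow_ne_zero 2 hc)
    have := hinv _ hw x c
    have e : (f c ^ 3 / c ^ 2) ^ 2 * f (f c ^ 3 / c ^ 2) ^ 3 * c = 1 := by
      have e1 : f (f c ^ 3 / c ^ 2) ^ 3 = c ^ 3 / (f c ^ 3) ^ 2 := by
        have e2 : f (f c ^ 3 / c ^ 2) = c / f c ^ 2 := by
          rw [map_div₀, map_pow, map_pow, hf3 c]
        rw [e2, div_pow, ← pow_mul, ← pow_mul]
      rw [e1]
      field_simp
    rw [e, mul_comm] at this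
    exact this.symm
  have ht3 : t + 1 ≠ 0 := by
    intro h
    exact ht2 (by linear_combination h)
  have hne : f (t + 1) ^ 3 / (t + 1) ^ 2 ≠ f t ^ 3 / t ^ 2 + 1 := by
    intro h
    rw [map_add, map_one] at h
    have e1 : (f t + 1) ^ 3 = f t ^ 3 + 1 := by
      linear_combination (f t ^ 2 + f t) * h3
    rw [e1] at h
    field_simp at h
    have e2 : (1 - t) * (f t ^ 3 - t ^ 3) = 0 := by
      linear_combination (-1 : K) * h + (t ^ 4 + t ^ 3 + t * f t ^ 3 + t ^ 3 - t ^ 3) * h3 * 0 + (-(t * f t ^ 3) - t ^ 3) * h3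
    have e3 : f t ^ 3 = t ^ 3 := by
      rcases mul_eq_zero.mp e2 with h' | h'
      · exact absurd (by linear_combination -h') ht1
      · exact sub_eq_zero.mp h'
    have e4 : f t = t := by
      have e5 : (f t - t) ^ 3 = 0 := by
        linear_combination e3 + (-(f t ^ 2 * t) + f t * t ^ 2) * h3
      exact sub_eq_zero.mp (pow_eq_zero_iff (by norm_num) |>.mp e5)
    have e6 := hf3 t
    rw [e4, e4] at e6
    have e7 : t * (t - 1) * (t + 1) = 0 := by linear_combination e6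
    rcases mul_eq_zero.mp e7 with h' | h'
    · rcases mul_eq_zero.mp h' with h'' | h''
      · exact ht0 h''
      · exact ht1 (sub_eq_zero.mp h'')
    · exact ht3 h'
  have hg1 : ∀ y, κ y 1 = 1 := by
    apply sch_g_one (g := fun y => κ y 1) hg hne
    intro x
    show κ (x * (f (t + 1) ^ 3 / (t + 1) ^ 2)) 1 = κ (x * (f t ^ 3 / t ^ 2 + 1)) 1
    rw [← hform _ ht3, h2, mul_add, mul_one, hg, ← hform _ ht0]
  by_cases hc : c = 0
  · rw [hc]
    exact sch_right_zero h2 x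
  · rw [hform c hc, hg1]

end Field

end Cfsg.Agent.Lib.Ree
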