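import Cfsg.Agent.Lib.Ree.SchA

/-! Schur multipliers of the small Ree groups: extensions of order three do not split off the Sylow 3-subgroup. -/

set_option autoImplicit false
set_option linter.unusedSimpArgs false
set_option linter.unusedVariables false
set_option linter.unusedSectionVars false

namespace Cfsg.Agent.Lib.Ree

open scoped commutatorElement
open Cfsg.Agent.Lib.Suzuki (comm_mul_left comm_mul_right comm_congr)

theorem sch_par {K M : Type*} [Field K] [Group M] (κ : K → M) (h : ∀ x x', κ (x + x') = κ x * κ x')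
    (hneg : ∀ x, κ (-x) = κ x) (h3 : ∀ x, κ x ^ 3 = 1) (x : K) : κ x = 1 := by
  have h0 : κ 0 = 1 := by
    have := h 0 0
    rw [add_zero] at this
    exact mul_eq_left.mp this.symm
  have e := h (-x) x
  rw [neg_add_cancel, h0, hneg] at e
  have e2 := h3 x
  rw [pow_succ, pow_two, ← e, one_mul] at e2
  exact e2

theorem sch_sum {K : Type*} [Field K] [Fintype Kˣ] (W : Kˣ → K) (hW : ∀ s s', W (s * s') = W s * W s')
    (s₀ : Kˣ) (h : W s₀ ≠ 1) : ∑ s, W s = 0 := by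
  have e := Fintype.sum_equiv (Equiv.mulRight s₀) (fun s => W (s * s₀)) W (fun _ => rfl)
  simp only [hW, ← Finset.sum_mul] at e
  have e2 : (∑ s, W s) * (W s₀ - 1) = 0 := by linear_combination e
  exact (mul_eq_zero.mp e2).resolve_right (sub_ne_zero.mpr h)

variable {K : Type*} [Field K] [CharP K 3] {f : K ≃+* K} {G : Type*} [Group G] {Γ : Type*} [Group Γ]

namespace RD

variable (R : RD K f G)

theorem t_V2 (b c b' c' : K) : R.t 0 b c * R.t 0 b' c' = R.t 0 (b + b') (c + c') := by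
  rw [R.t_mul]
  congr 1 <;> simp

theorem t_central (a b c c' : K) : R.t a b c * R.t 0 0 c' = R.t 0 0 c' * R.t a b c := by
  rw [R.t_mul, R.t_mul]
  congr 1 <;> simp
  ring

theorem t_a_V (a b c : K) : R.t a 0 0 * R.t 0 b c = R.t a b c := by
  rw [R.t_mul]
  congr 1 <;> simp

theorem t_aa (a a' : K) : R.t a 0 0 * R.t a' 0 0 * R.t 0 (a * f a' ^ 3) (a ^ 2 * f a' ^ 3 - a * a' * f a' ^ 3) = R.t (a + a') 0 0 := by
  rw [R.t_mul, R.t_mul]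
  congr 1 <;> simp

theorem t_comm (a b c b' c' : K) : R.t a b c * R.t 0 b' c' = R.t 0 0 (a * b') * (R.t 0 b' c' * R.t a b c) := by
  rw [R.t_mul, R.t_mul, R.t_mul]
  congr 1 <;> simp <;> ring

theorem comm_U (a b c a' b' c' : K) : ∃ b'' c'', ⁅R.t a b c, R.t a' b' c'⁆ = R.t 0 b'' c'' := by
  rw [commutatorElement_def, R.t_inv, R.t_inv, R.t_mul, R.t_mul, R.t_mul]
  have key : a + a' + -a + -a' = (0 : K) := by ring
  rw [key]
  exact ⟨_, _, rfl⟩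

end RD

theorem ex_c (hf3 : ∀ x, f (f x) ^ 3 = x) {χ : K} (hχ : χ ≠ 0) : ∃ w : K, w ≠ 0 ∧ w ^ 2 * f w ^ 3 = χ := by
  have hfc : f χ ≠ 0 := (map_ne_zero f).mpr hχ
  refine ⟨χ ^ 2 / f χ ^ 3, div_ne_zero (pow_ne_zero 2 hχ) (pow_ne_zero 3 hfc), ?_⟩
  have e2 : f (χ ^ 2 / f χ ^ 3) = f χ ^ 2 / χ := by
    rw [map_div₀, map_pow, map_pow, hf3 χ]
  rw [e2]
  field_simp

theorem ex_b (hf3 : ∀ x, f (f x) ^ 3 = x) {r : K} (hr : r ≠ 0) : ∃ w : K, w ≠ 0 ∧ w * f w ^ 3 = r ^ 2 := by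
  have hfc : f r ≠ 0 := (map_ne_zero f).mpr hr
  refine ⟨f r ^ 3 / r, div_ne_zero (pow_ne_zero 3 hfc) hr, ?_⟩
  have e2 : f (f r ^ 3 / r) = r / f r := by
    rw [map_div₀, map_pow, hf3 r]
  rw [e2]
  field_simp

theorem f_neg_one : f (-1 : K) ^ 3 = -1 := by
  rw [map_neg, map_one]
  ring

/-- A central extension of a small Ree group with kernel of exponent three. -/
structure SX (R : RD K f G) (σ : Γ →* G) : Prop where
  hs : Function.Surjective σ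
  hK : σ.ker ≤ Subgroup.center Γ
  h3 : ∀ z ∈ σ.ker, z ^ 3 = 1
  hns : ∀ x : K, x * x ≠ -1
  ht : ∃ t : K, t ≠ 0 ∧ t ≠ 1 ∧ t ≠ -1

namespace SX

variable {R : RD K f G} {σ : Γ →* G} (S : SX R σ)

/-- A section. -/
noncomputable def L (g : G) : Γ := Function.surjInv S.hs g

theorem L_spec (g : G) : σ (S.L g) = g := Function.surjInv_eq _ _

/-- A section over the unipotent group. -/
noncomputable def Lt (a b c : K) : Γ := S.L (R.t a b c)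

include S

theorem Lt_spec (a b c : K) : σ (S.Lt a b c) = R.t a b c := S.L_spec _

theorem cen {z : Γ} (hz : z ∈ σ.ker) (g : Γ) : g * z = z * g := Subgroup.mem_center_iff.mp (S.hK hz) g

theorem cgr {x x' w w' : Γ} (h1 : σ x = σ x') (h2 : σ w = σ w') : ⁅x, w⁆ = ⁅x', w'⁆ := comm_congr S.hK h1 h2

omit [CharP K 3] in
theorem mem_ker {x w : Γ} (h : σ x * σ w = σ w * σ x) : ⁅x, w⁆ ∈ σ.ker := by
  rw [MonoidHom.mem_ker, map_commutatorElement, commutatorElement_eq_one_iff_mul_comm]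
  exact h

theorem conj_ker {z : Γ} (hz : z ∈ σ.ker) (g : Γ) : g * z * g⁻¹ = z := by
  rw [S.cen hz g]
  group

omit [CharP K 3] in
theorem conj_comm (g x w : Γ) : g * ⁅x, w⁆ * g⁻¹ = ⁅g * x * g⁻¹, g * w * g⁻¹⁆ := by
  simp only [commutatorElement_def]
  group

theorem inv_ker {g x w x' w' : Γ} (hk : ⁅x, w⁆ ∈ σ.ker) (h1 : σ x' = σ (g * x * g⁻¹)) (h2 : σ w' = σ (g * w * g⁻¹)) :
    ⁅x', w'⁆ = ⁅x, w⁆ := by
  rw [S.cgr h1 h2, ← S.conj_comm, S.conj_ker hk]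

theorem bi_left {A : K → Γ} {w : Γ} (hadd : ∀ x x', σ (A (x + x')) = σ (A x) * σ (A x'))
    (hc : ∀ x, ⁅A x, w⁆ ∈ σ.ker) (x x' : K) : ⁅A (x + x'), w⁆ = ⁅A x, w⁆ * ⁅A x', w⁆ := by
  rw [S.cgr (x' := A x * A x') (w' := w) (by rw [map_mul, hadd]) rfl, comm_mul_left (S.cen (hc x') (A x)).symm]
  exact S.cen (hc x) _

theorem bi_right {x : Γ} {B : K → Γ} (hadd : ∀ x x', σ (B (x + x')) = σ (B x) * σ (B x'))
    (hc : ∀ w, ⁅x, B w⁆ ∈ σ.ker) (w w' : K) : ⁅x, B (w + w')⁆ = ⁅x, B w⁆ * ⁅x, B w'⁆ := by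
  rw [S.cgr (x' := x) (w' := B w * B w') rfl (by rw [map_mul, hadd]), comm_mul_right (S.cen (hc w') (B w)).symm]

theorem tor [Fintype K] {w : K} (hw : w ≠ 0) : ∃ s : Kˣ, ∀ a b c, R.h s * R.t a b c * (R.h s)⁻¹ =
    R.t (w * a) (w * f w ^ 3 * b) (w ^ 2 * f w ^ 3 * c) := by
  obtain ⟨s, hs⟩ := RD.c1_surj (f := f) R.hf3 (Units.mk0 w hw)
  refine ⟨s, fun a b c => ?_⟩
  rw [R.h_t', hs]
  rfl

theorem tor_L [Fintype K] {w : K} (hw : w ≠ 0) : ∃ g : Γ, ∀ a b c, ∀ x : Γ, σ x = R.t a b c →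
    σ (g * x * g⁻¹) = R.t (w * a) (w * f w ^ 3 * b) (w ^ 2 * f w ^ 3 * c) := by
  obtain ⟨s, hs⟩ := S.tor hw
  refine ⟨S.L (R.h s), fun a b c x hx => ?_⟩
  rw [map_mul, map_mul, map_inv, S.L_spec, hx, hs]

section stages

variable [Fintype K]

theorem lt_add_c (c c' : K) : σ (S.Lt 0 0 (c + c')) = σ (S.Lt 0 0 c) * σ (S.Lt 0 0 c') := by
  simp only [S.Lt_spec, R.t_V2, add_zero]

theorem lt_add_b (c c' : K) : σ (S.Lt 0 (c + c') 0) = σ (S.Lt 0 c 0) * σ (S.Lt 0 c' 0) := by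
  simp only [S.Lt_spec, R.t_V2, add_zero]

theorem mem_V (b c b' c' : K) : ⁅S.Lt 0 b c, S.Lt 0 b' c'⁆ ∈ σ.ker := by
  apply S.mem_ker
  simp only [S.Lt_spec, R.t_V2, add_comm]

theorem cc (c c' : K) : ⁅S.Lt 0 0 c, S.Lt 0 0 c'⁆ = 1 := by
  obtain ⟨t, ht0, ht1, ht2⟩ := S.ht
  refine bi_all (fun c c' => ⁅S.Lt 0 0 c, S.Lt 0 0 c'⁆) (fun x x' w => ?_) (fun x w w' => ?_) (fun χ hχ x w => ?_) ht0 ht1 ht2 c c'
  · exact S.bi_left (A := fun c => S.Lt 0 0 c) S.lt_add_c (fun x => S.mem_V _ _ _ _) x x'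
  · exact S.bi_right (B := fun c => S.Lt 0 0 c) S.lt_add_c (fun x => S.mem_V _ _ _ _) w w'
  · obtain ⟨u, hu0, hu⟩ := ex_c R.hf3 hχ
    obtain ⟨g, hg⟩ := S.tor_L hu0
    refine S.inv_ker (g := g) (S.mem_V _ _ _ _) ?_ ?_
    · rw [hg 0 0 x _ (S.Lt_spec _ _ _), S.Lt_spec, hu]
      simp
    · rw [hg 0 0 w _ (S.Lt_spec _ _ _), S.Lt_spec, hu]
      simp

theorem bb (b b' : K) : ⁅S.Lt 0 b 0, S.Lt 0 b' 0⁆ = 1 := by
  obtain ⟨t, ht0, ht1, ht2⟩ := S.ht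
  refine bi_sq (fun c c' => ⁅S.Lt 0 c 0, S.Lt 0 c' 0⁆) (fun x x' w => ?_) (fun x w w' => ?_) (fun χ hχ x w => ?_) S.hns ht0 ht1 ht2 b b'
  · exact S.bi_left (A := fun c => S.Lt 0 c 0) S.lt_add_b (fun x => S.mem_V _ _ _ _) x x'
  · exact S.bi_right (B := fun c => S.Lt 0 c 0) S.lt_add_b (fun x => S.mem_V _ _ _ _) w w'
  · obtain ⟨u, hu0, hu⟩ := ex_b R.hf3 hχ
    obtain ⟨g, hg⟩ := S.tor_L hu0
    refine S.inv_ker (g := g) (S.mem_V _ _ _ _) ?_ ?_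
    · rw [hg 0 x 0 _ (S.Lt_spec _ _ _), S.Lt_spec, hu]
      simp
    · rw [hg 0 w 0 _ (S.Lt_spec _ _ _), S.Lt_spec, hu]
      simp

theorem neg_h : ∃ g : Γ, ∀ a b c, ∀ x : Γ, σ x = R.t a b c → σ (g * x * g⁻¹) = R.t (-a) b (-c) := by
  have h1 : (-1 : K) ≠ 0 := neg_ne_zero.mpr one_ne_zero
  obtain ⟨g, hg⟩ := S.tor_L h1
  refine ⟨g, fun a b c x hx => ?_⟩
  rw [hg a b c x hx, f_neg_one]
  congr 1 <;> ring

theorem ker_cube {z : Γ} (hz : z ∈ σ.ker) : z ^ 3 = 1 := S.h3 z hz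

theorem bc (b c : K) : ⁅S.Lt 0 b 0, S.Lt 0 0 c⁆ = 1 := by
  refine sch_par (fun c => ⁅S.Lt 0 b 0, S.Lt 0 0 c⁆) (fun w w' => ?_) (fun w => ?_) (fun w => S.h3 _ (S.mem_V _ _ _ _)) c
  · exact S.bi_right (B := fun c => S.Lt 0 0 c) S.lt_add_c (fun x => S.mem_V _ _ _ _) w w'
  · obtain ⟨g, hg⟩ := S.neg_h
    refine S.inv_ker (g := g) (S.mem_V _ _ _ _) ?_ ?_
    · rw [hg 0 b 0 _ (S.Lt_spec _ _ _), S.Lt_spec]
      simp
    · rw [hg 0 0 w _ (S.Lt_spec _ _ _), S.Lt_spec]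
      simp

theorem cb (b c : K) : ⁅S.Lt 0 0 c, S.Lt 0 b 0⁆ = 1 := by
  rw [commutatorElement_eq_one_iff_mul_comm]
  exact (commutatorElement_eq_one_iff_mul_comm.mp (S.bc b c)).symm

theorem split_V {x : Γ} {b c : K} (h : σ x = R.t 0 b c) : σ x = σ (S.Lt 0 b 0 * S.Lt 0 0 c) := by
  rw [h, map_mul, S.Lt_spec, S.Lt_spec, R.t_V2]
  simp

/-- Stage one. -/
theorem comm_V {x x' : Γ} {b c b' c' : K} (h : σ x = R.t 0 b c) (h' : σ x' = R.t 0 b' c') : ⁅x, x'⁆ = 1 := by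
  rw [S.cgr (S.split_V h) (S.split_V h'), commutatorElement_eq_one_iff_mul_comm]
  have h1 := commutatorElement_eq_one_iff_mul_comm.mp (S.bb b b')
  have h2 := commutatorElement_eq_one_iff_mul_comm.mp (S.bc b c')
  have h3 := commutatorElement_eq_one_iff_mul_comm.mp (S.cb b' c)
  have h4 := commutatorElement_eq_one_iff_mul_comm.mp (S.cc c c')
  have c1 : Commute (S.Lt 0 b 0) (S.Lt 0 b' 0) := h1
  have c2 : Commute (S.Lt 0 b 0) (S.Lt 0 0 c') := h2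
  have c3 : Commute (S.Lt 0 0 c) (S.Lt 0 b' 0) := h3
  have c4 : Commute (S.Lt 0 0 c) (S.Lt 0 0 c') := h4
  exact Commute.mul_left (Commute.mul_right c1 c2) (Commute.mul_right c3 c4)

theorem mem_kc (a b c c' : K) : ⁅S.Lt a b c, S.Lt 0 0 c'⁆ ∈ σ.ker := by
  apply S.mem_ker
  simp only [S.Lt_spec, R.t_central]

theorem split_aa (a a' : K) : σ (S.Lt (a + a') 0 0) =
    σ (S.Lt a 0 0 * S.Lt a' 0 0 * S.Lt 0 (a * f a' ^ 3) (a ^ 2 * f a' ^ 3 - a * a' * f a' ^ 3)) := by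
  simp only [map_mul, S.Lt_spec, R.t_aa]

theorem ac (a c : K) : ⁅S.Lt a 0 0, S.Lt 0 0 c⁆ = 1 := by
  obtain ⟨t, ht0, ht1, ht2⟩ := S.ht
  refine bi_ac f R.hf3 (fun a c => ⁅S.Lt a 0 0, S.Lt 0 0 c⁆) (fun x x' w => ?_) (fun x w w' => ?_) (fun u hu x w => ?_) ht0 ht1 ht2 a c
  · show ⁅S.Lt (x + x') 0 0, S.Lt 0 0 w⁆ = ⁅S.Lt x 0 0, S.Lt 0 0 w⁆ * ⁅S.Lt x' 0 0, S.Lt 0 0 w⁆
    have hW := S.comm_V (S.Lt_spec 0 (x * f x' ^ 3) (x ^ 2 * f x' ^ 3 - x * x' * f x' ^ 3)) (S.Lt_spec 0 0 w)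
    rw [S.cgr (S.split_aa x x') rfl, comm_mul_left (by rw [hW]; simp), hW, one_mul, comm_mul_left (S.cen (S.mem_kc _ _ _ _) _).symm]
    exact S.cen (S.mem_kc _ _ _ _) _
  · exact S.bi_right (B := fun c => S.Lt 0 0 c) S.lt_add_c (fun y => S.mem_kc _ _ _ _) w w'
  · obtain ⟨g, hg⟩ := S.tor_L hu
    refine S.inv_ker (g := g) (S.mem_kc _ _ _ _) ?_ ?_
    · rw [hg x 0 0 _ (S.Lt_spec _ _ _), S.Lt_spec]
      simp
    · rw [hg 0 0 w _ (S.Lt_spec _ _ _), S.Lt_spec]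
      simp

theorem split_U {x : Γ} {a b c : K} (h : σ x = R.t a b c) : σ x = σ (S.Lt a 0 0 * S.Lt 0 b c) := by
  rw [h, map_mul, S.Lt_spec, S.Lt_spec, R.t_a_V]

/-- Stage two. -/
theorem comm_Z {x x' : Γ} {a b c c' : K} (h : σ x = R.t a b c) (h' : σ x' = R.t 0 0 c') : ⁅x, x'⁆ = 1 := by
  have hx' := S.Lt_spec 0 0 c'
  rw [S.cgr (S.split_U h) (h'.trans hx'.symm)]
  have hW := S.comm_V (S.Lt_spec 0 b c) (S.Lt_spec 0 0 c')
  rw [comm_mul_left (by rw [hW]; simp), hW, S.ac, one_mul]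

end stages

end SX

end Cfsg.Agent.Lib.Ree
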