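import Cfsg.Agent.Lib.Ree.SolF

/-! An affine group with the element orders of a small Ree group outside the two big tori. -/

set_option autoImplicit false
set_option linter.unusedSimpArgs false
set_option linter.unusedVariables false
set_option linter.unusedSectionVars false

namespace Cfsg.Agent.Lib.Ree

/-- The affine group attached to a group of linear automorphisms. -/
@[ext] structure AffG (R W : Type*) [Ring R] [AddCommGroup W] [Module R W] (Y : Subgroup (Module.End R W)ˣ) where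
  v : W
  y : Y

namespace AffG

variable {R W : Type*} [Ring R] [AddCommGroup W] [Module R W] {Y : Subgroup (Module.End R W)ˣ}

instance : Mul (AffG R W Y) := ⟨fun a b => ⟨a.v + (a.y.1 : Module.End R W) b.v, a.y * b.y⟩⟩
instance : One (AffG R W Y) := ⟨⟨0, 1⟩⟩
instance : Inv (AffG R W Y) := ⟨fun a => ⟨-(((a.y⁻¹).1 : Module.End R W) a.v), a.y⁻¹⟩⟩

@[simp] theorem mul_v (a b : AffG R W Y) : (a * b).v = a.v + (a.y.1 : Module.End R W) b.v := rfl
@[simp] theorem mul_y (a b : AffG R W Y) : (a * b).y = a.y * b.y := rfl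
@[simp] theorem one_v : (1 : AffG R W Y).v = 0 := rfl
@[simp] theorem one_y : (1 : AffG R W Y).y = 1 := rfl
@[simp] theorem inv_v (a : AffG R W Y) : (a⁻¹).v = -(((a.y⁻¹).1 : Module.End R W) a.v) := rfl
@[simp] theorem inv_y (a : AffG R W Y) : (a⁻¹).y = a.y⁻¹ := rfl

instance : Group (AffG R W Y) := Group.ofLeftAxioms
  (by
    intro a b c
    apply AffG.ext
    · simp [add_assoc, Module.End.mul_apply]
    · simp [mul_assoc])
  (by
    intro a
    apply AffG.ext
    · simp
    · simp)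
  (by
    intro a
    apply AffG.ext
    · simp
    · simp)

@[simp] theorem pow_y (a : AffG R W Y) (n : ℕ) : (a ^ n).y = a.y ^ n := by
  induction n with
  | zero => simp
  | succ n ih => rw [pow_succ, pow_succ, mul_y, ih]

theorem pow_succ_v (a : AffG R W Y) (n : ℕ) : (a ^ (n + 1)).v = a.v + (a.y.1 : Module.End R W) (a ^ n).v := by
  rw [pow_succ', mul_v]

/-- The fixed-point relation for powers. -/
theorem pow_v_fix (a : AffG R W Y) (n : ℕ) :
    (a.y.1 : Module.End R W) (a ^ n).v - (a ^ n).v = (((a.y ^ n).1 : (Module.End R W)ˣ) : Module.End R W) a.v - a.v := by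
  induction n with
  | zero => simp
  | succ n ih =>
    rw [pow_succ_v, map_add, add_sub_add_comm, ← map_sub, ih, map_sub]
    have e : (a.y ^ (n + 1)).1 = a.y.1 * (a.y ^ n).1 := by
      rw [pow_succ']
      rfl
    rw [e, Units.val_mul, Module.End.mul_apply]
    abel

/-- If `y` has no non-zero fixed points and `y ^ n = 1` then `a ^ n = 1`. -/
theorem pow_eq_one_of_fpf (a : AffG R W Y) {n : ℕ} (hn : a.y ^ n = 1)
    (hf : ∀ X : W, (a.y.1 : Module.End R W) X = X → X = 0) : a ^ n = 1 := by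
  apply AffG.ext
  · have h := pow_v_fix a n
    rw [hn] at h
    simp only [OneMemClass.coe_one, Units.val_one, Module.End.one_apply, sub_self] at h
    rw [one_v]
    exact hf _ (sub_eq_zero.mp h)
  · rw [pow_y, hn, one_y]

/-- Powers of a translation. -/
theorem trans_pow (a : AffG R W Y) (h : a.y = 1) (n : ℕ) : (a ^ n).v = n • a.v := by
  induction n with
  | zero => simp
  | succ n ih =>
    rw [pow_succ_v, h, ih]
    simp [succ_nsmul, add_comm]

theorem one_of (a : AffG R W Y) (h1 : a.v = 0) (h2 : a.y = 1) : a = 1 := AffG.ext h1 h2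

/-- The hom to the linear part. -/
def toY : AffG R W Y →* Y where
  toFun a := a.y
  map_one' := rfl
  map_mul' _ _ := rfl

/-- The linear part as a subgroup. -/
def inrH : Y →* AffG R W Y where
  toFun y := ⟨0, y⟩
  map_one' := rfl
  map_mul' a b := by
    apply AffG.ext
    · simp
    · simp

theorem order_inr (y : Y) : orderOf (inrH (R := R) (W := W) y) = orderOf y :=
  orderOf_injective _ (fun a b h => congrArg AffG.y h) y

end AffG

section Mat

open Matrix

variable {K : Type*} [Field K] (s : K →+* K)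

/-- The twist. -/
def twM (g : Matrix (Fin 2) (Fin 2) K) : Matrix (Fin 2) (Fin 2) K := (g.map s)ᵀ

theorem twM_mul (g g' : Matrix (Fin 2) (Fin 2) K) : twM s (g * g') = twM s g' * twM s g := by
  unfold twM
  rw [Matrix.map_mul, Matrix.transpose_mul]

theorem twM_one : twM s (1 : Matrix (Fin 2) (Fin 2) K) = 1 := by
  unfold twM
  rw [Matrix.map_one s (map_zero s) (map_one s), Matrix.transpose_one]

variable (K) in
/-- The module. -/
abbrev WW (k : ℕ) := Fin (k + 1) → Matrix (Fin 2) (Fin 2) K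

/-- The action on the module. -/
def rhoM (k : ℕ) : ℤˣ × SpecialLinearGroup (Fin 2) K →* Module.End K (WW K k) where
  toFun p :=
    { toFun := fun X i => ((p.1 : ℤˣ) : ℤ) • (p.2.1 * X i * twM s p.2.1)
      map_add' := by
        intro X Y
        funext i
        simp [Matrix.mul_add, Matrix.add_mul, smul_add]
      map_smul' := by
        intro c X
        funext i
        simp [Matrix.mul_smul, Matrix.smul_mul, smul_comm] }
  map_one' := by
    apply LinearMap.ext
    intro X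
    funext i
    simp [twM_one]
  map_mul' p p' := by
    apply LinearMap.ext
    intro X
    funext i
    simp only [Prod.fst_mul, Prod.snd_mul, Units.val_mul, LinearMap.coe_mk, AddHom.coe_mk, Module.End.mul_apply,
      Matrix.SpecialLinearGroup.coe_mul, twM_mul, mul_smul, Matrix.mul_smul, Matrix.smul_mul, Matrix.mul_assoc]

theorem rhoM_apply (k : ℕ) (e : ℤˣ) (g : SpecialLinearGroup (Fin 2) K) (X : WW K k) (i : Fin (k + 1)) :
    rhoM s k (e, g) X i = (e : ℤ) • (g.1 * X i * twM s g.1) := rfl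

/-- The group of linear parts. -/
def YY (k : ℕ) : Subgroup (Module.End K (WW K k))ˣ := (rhoM s k).toHomUnits.range

/-- The element of the group of linear parts. -/
def yy (k : ℕ) (p : ℤˣ × SpecialLinearGroup (Fin 2) K) : YY s k := ⟨(rhoM s k).toHomUnits p, p, rfl⟩

theorem yy_mul (k : ℕ) (p p' : ℤˣ × SpecialLinearGroup (Fin 2) K) : yy s k (p * p') = yy s k p * yy s k p' := by
  apply Subtype.ext
  simp [yy]

theorem yy_one (k : ℕ) : yy s k 1 = 1 := by
  apply Subtype.ext
  simp [yy]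

theorem yy_pow (k : ℕ) (p : ℤˣ × SpecialLinearGroup (Fin 2) K) (n : ℕ) : yy s k (p ^ n) = yy s k p ^ n := by
  induction n with
  | zero => simp [yy_one]
  | succ n ih => rw [pow_succ, pow_succ, yy_mul, ih]

theorem yy_form {k : ℕ} (y : YY s k) : ∃ p, y = yy s k p := by
  obtain ⟨y, p, rfl⟩ := y
  exact ⟨p, rfl⟩

theorem yy_apply (k : ℕ) (e : ℤˣ) (g : SpecialLinearGroup (Fin 2) K) (X : WW K k) (i : Fin (k + 1)) :
    (((yy s k (e, g)).1 : (Module.End K (WW K k))ˣ) : Module.End K (WW K k)) X i = (e : ℤ) • (g.1 * X i * twM s g.1) := rfl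

theorem yy_neg (h2 : (2 : K) ≠ 0) (k : ℕ) : yy s k (1, -1) = 1 := by
  apply Subtype.ext
  apply Units.ext
  apply LinearMap.ext
  intro X
  funext i
  show (((1 : ℤˣ) : ℤ)) • ((-1 : SpecialLinearGroup (Fin 2) K).1 * X i * twM s (-1 : SpecialLinearGroup (Fin 2) K).1) = X i
  rw [Matrix.SpecialLinearGroup.coe_neg, Matrix.SpecialLinearGroup.coe_one]
  unfold twM
  simp [Matrix.map_neg, Matrix.transpose_neg]

/-- Rank one matrices. -/
theorem rank_one_form {x y z w : K} (hd : x * w - y * z = 0) (hne : x ≠ 0 ∨ y ≠ 0 ∨ z ≠ 0 ∨ w ≠ 0) :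
    ∃ u₁ u₂ w₁ w₂ : K, (u₁ ≠ 0 ∨ u₂ ≠ 0) ∧ (w₁ ≠ 0 ∨ w₂ ≠ 0) ∧ x = u₁ * w₁ ∧ y = u₁ * w₂ ∧ z = u₂ * w₁ ∧ w = u₂ * w₂ := by
  by_cases hx : x = 0
  · subst hx
    by_cases hy : y = 0
    · subst hy
      refine ⟨0, 1, z, w, Or.inr one_ne_zero, ?_, by ring, by ring, by ring, by ring⟩
      rcases hne with h | h | h | h
      · exact absurd rfl h
      · exact absurd rfl h
      · exact Or.inl h
      · exact Or.inr h
    · have hz : z = 0 := by
        have : y * z = 0 := by linear_combination -hd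
        exact (mul_eq_zero.mp this).resolve_left hy
      subst hz
      have hyi : y * y⁻¹ = 1 := mul_inv_cancel₀ hy
      refine ⟨1, w * y⁻¹, 0, y, Or.inl one_ne_zero, Or.inr hy, by ring, by ring, by ring, ?_⟩
      linear_combination (-w) * hyi
  · have hxi : x * x⁻¹ = 1 := mul_inv_cancel₀ hx
    refine ⟨1, z * x⁻¹, x, y, Or.inl one_ne_zero, Or.inl hx, by ring, by ring, ?_, ?_⟩
    · linear_combination (-z) * hxi
    · linear_combination (-w) * hxi + x⁻¹ * hd

/-- A product of two vectors determines the vectors up to scalars. -/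
theorem prod_vec {e : K} (he : e ≠ 0) {a₁ a₂ b₁ b₂ u₁ u₂ w₁ w₂ : K} (hu : u₁ ≠ 0 ∨ u₂ ≠ 0) (hw : w₁ ≠ 0 ∨ w₂ ≠ 0)
    (h11 : a₁ * b₁ = e * (u₁ * w₁)) (h12 : a₁ * b₂ = e * (u₁ * w₂)) (h21 : a₂ * b₁ = e * (u₂ * w₁)) (h22 : a₂ * b₂ = e * (u₂ * w₂)) :
    ∃ l m : K, a₁ = l * u₁ ∧ a₂ = l * u₂ ∧ b₁ = m * w₁ ∧ b₂ = m * w₂ ∧ l * m = e := by
  have hb : b₁ ≠ 0 ∨ b₂ ≠ 0 := by
    by_contra hc
    push Not at hc
    obtain ⟨rfl, rfl⟩ := hc
    have h1 : e * (u₁ * w₁) = 0 := by rw [← h11]; ring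
    have h2 : e * (u₁ * w₂) = 0 := by rw [← h12]; ring
    have h3 : e * (u₂ * w₁) = 0 := by rw [← h21]; ring
    have h4 : e * (u₂ * w₂) = 0 := by rw [← h22]; ring
    simp only [mul_eq_zero, he, false_or] at h1 h2 h3 h4
    rcases hu with hu | hu <;> rcases hw with hw | hw <;> simp_all
  have ha : a₁ ≠ 0 ∨ a₂ ≠ 0 := by
    by_contra hc
    push Not at hc
    obtain ⟨rfl, rfl⟩ := hc
    have h1 : e * (u₁ * w₁) = 0 := by rw [← h11]; ring
    have h2 : e * (u₁ * w₂) = 0 := by rw [← h12]; ring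
    have h3 : e * (u₂ * w₁) = 0 := by rw [← h21]; ring
    have h4 : e * (u₂ * w₂) = 0 := by rw [← h22]; ring
    simp only [mul_eq_zero, he, false_or] at h1 h2 h3 h4
    rcases hu with hu | hu <;> rcases hw with hw | hw <;> simp_all
  -- get the scalars
  obtain ⟨w₀, b₀, hw0, hb0, hb10, hb20⟩ : ∃ w₀ b₀ : K, w₀ ≠ 0 ∧ b₀ ≠ 0 ∧ a₁ * b₀ = e * (u₁ * w₀) ∧ a₂ * b₀ = e * (u₂ * w₀) := by
    rcases hb with hb | hb
    · refine ⟨w₁, b₁, ?_, hb, h11, h21⟩
      intro h0
      subst h0
      have h5 : a₁ * b₁ = 0 := by rw [h11]; ring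
      have h6 : a₂ * b₁ = 0 := by rw [h21]; ring
      rcases ha with ha | ha
      · exact ha ((mul_eq_zero.mp h5).resolve_right hb)
      · exact ha ((mul_eq_zero.mp h6).resolve_right hb)
    · refine ⟨w₂, b₂, ?_, hb, h12, h22⟩
      intro h0
      subst h0
      have h5 : a₁ * b₂ = 0 := by rw [h12]; ring
      have h6 : a₂ * b₂ = 0 := by rw [h22]; ring
      rcases ha with ha | ha
      · exact ha ((mul_eq_zero.mp h5).resolve_right hb)
      · exact ha ((mul_eq_zero.mp h6).resolve_right hb)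
  have hbi : b₀ * b₀⁻¹ = 1 := mul_inv_cancel₀ hb0
  have hwi : w₀ * w₀⁻¹ = 1 := mul_inv_cancel₀ hw0
  refine ⟨e * w₀ * b₀⁻¹, b₀ * w₀⁻¹, ?_, ?_, ?_, ?_, ?_⟩
  · linear_combination (b₀⁻¹) * hb10 - a₁ * hbi
  · linear_combination (b₀⁻¹) * hb20 - a₂ * hbi
  · -- b₁ = m w₁
    have h7 : a₁ * (b₁ * w₀ - b₀ * w₁) = 0 ∧ a₂ * (b₁ * w₀ - b₀ * w₁) = 0 := by
      constructor
      · linear_combination w₀ * h11 - w₁ * hb10
      · linear_combination w₀ * h21 - w₁ * hb20
    have h8 : b₁ * w₀ - b₀ * w₁ = 0 := by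
      rcases ha with ha | ha
      · exact (mul_eq_zero.mp h7.1).resolve_left ha
      · exact (mul_eq_zero.mp h7.2).resolve_left ha
    linear_combination w₀⁻¹ * h8 - b₁ * hwi
  · have h7 : a₁ * (b₂ * w₀ - b₀ * w₂) = 0 ∧ a₂ * (b₂ * w₀ - b₀ * w₂) = 0 := by
      constructor
      · linear_combination w₀ * h12 - w₂ * hb10
      · linear_combination w₀ * h22 - w₂ * hb20
    have h8 : b₂ * w₀ - b₀ * w₂ = 0 := by
      rcases ha with ha | ha
      · exact (mul_eq_zero.mp h7.1).resolve_left ha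
      · exact (mul_eq_zero.mp h7.2).resolve_left ha
    linear_combination w₀⁻¹ * h8 - b₂ * hwi
  · linear_combination e * (w₀ * w₀⁻¹) * hbi + e * hwi

/-- The eigenvalue relation. -/
theorem eig_rel {A B C D l u₁ u₂ : K} (hu : u₁ ≠ 0 ∨ u₂ ≠ 0) (h1 : A * u₁ + B * u₂ = l * u₁) (h2 : C * u₁ + D * u₂ = l * u₂) :
    (A - l) * (D - l) - B * C = 0 := by
  rcases hu with hu | hu
  · have : u₁ * ((A - l) * (D - l) - B * C) = 0 := by
      linear_combination (D - l) * h1 - B * h2
    exact (mul_eq_zero.mp this).resolve_left hu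
  · have : u₂ * ((A - l) * (D - l) - B * C) = 0 := by
      linear_combination (A - l) * h2 - C * h1
    exact (mul_eq_zero.mp this).resolve_left hu

variable (hs : ∀ x, s x = x ^ 3) (h3 : (3 : K) = 0) (hneg : ∀ x : K, x ^ 2 ≠ -1)

include hs h3 hneg in
/-- The main fixed point lemma. -/
theorem fix_main (g : SpecialLinearGroup (Fin 2) K) {e : K} (he : e = 1 ∨ e = -1) {X : Matrix (Fin 2) (Fin 2) K} (hX : X ≠ 0)
    (h : e • (g.1 * X * twM s g.1) = X) :
    (e = 1 ∧ ((g.1 0 0 + g.1 1 1) = 0 ∨ (g.1 0 0 + g.1 1 1) ^ 2 = 1)) ∨ (e = -1 ∧ g.1 0 0 + g.1 1 1 = 0) := by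
  obtain ⟨A, B, C, D, hform, hdet⟩ := sl_form g
  obtain ⟨x, y, z, w, hXf⟩ : ∃ x y z w, X = !![x, y; z, w] := ⟨X 0 0, X 0 1, X 1 0, X 1 1, by
    ext i j
    fin_cases i <;> fin_cases j <;> rfl⟩
  have htw : twM s g.1 = !![A ^ 3, C ^ 3; B ^ 3, D ^ 3] := by
    unfold twM
    rw [hform]
    ext i j
    fin_cases i <;> fin_cases j <;> simp [hs]
  rw [htw, hform, hXf] at h
  have e00 := congrFun (congrFun h 0) 0
  have e01 := congrFun (congrFun h 0) 1
  have e10 := congrFun (congrFun h 1) 0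
  have e11 := congrFun (congrFun h 1) 1
  simp [Matrix.mul_apply, Fin.sum_univ_two] at e00 e01 e10 e11
  have ht : g.1 0 0 + g.1 1 1 = A + D := by
    rw [hform]
    simp
  rw [ht]
  have he2 : e * e = 1 := by
    rcases he with rfl | rfl <;> ring
  have he0 : e ≠ 0 := by
    intro h0
    rw [h0] at he2
    simp at he2
  have hcube : (A + D) ^ 3 = A ^ 3 + D ^ 3 := by
    linear_combination (A ^ 2 * D + A * D ^ 2) * h3
  have hcube2 : (A * D - B * C) ^ 3 = A ^ 3 * D ^ 3 - B ^ 3 * C ^ 3 := by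
    linear_combination (-(A * D) ^ 2 * (B * C) + (A * D) * (B * C) ^ 2) * h3
  have hdet3 : A ^ 3 * D ^ 3 - B ^ 3 * C ^ 3 = 1 := by
    rw [← hcube2, hdet]
    ring
  by_cases hd : x * w - y * z = 0
  · -- rank one
    have hne : x ≠ 0 ∨ y ≠ 0 ∨ z ≠ 0 ∨ w ≠ 0 := by
      by_contra hc
      push Not at hc
      obtain ⟨rfl, rfl, rfl, rfl⟩ := hc
      apply hX
      rw [hXf]
      ext i j
      fin_cases i <;> fin_cases j <;> rfl
    obtain ⟨u₁, u₂, w₁, w₂, hu, hw, rfl, rfl, rfl, rfl⟩ := rank_one_form hd hne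
    obtain ⟨l, m, h1, h2, h4, h5, h6⟩ := prod_vec (a₁ := A * u₁ + B * u₂) (a₂ := C * u₁ + D * u₂) (b₁ := w₁ * A ^ 3 + w₂ * B ^ 3)
      (b₂ := w₁ * C ^ 3 + w₂ * D ^ 3) he0 hu hw
      (by linear_combination e * e00 - (A * u₁ + B * u₂) * (w₁ * A ^ 3 + w₂ * B ^ 3) * (e * e - 1) * 0 + (e * e - 1) * 0 + (-(A * (u₁ * w₁) + B * (u₂ * w₁)) * A ^ 3 - (A * (u₁ * w₂) + B * (u₂ * w₂)) * B ^ 3) * he2)
      (by linear_combination e * e01 + (-(A * (u₁ * w₁) + B * (u₂ * w₁)) * C ^ 3 - (A * (u₁ * w₂) + B * (u₂ * w₂)) * D ^ 3) * he2)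
      (by linear_combination e * e10 + (-(C * (u₁ * w₁) + D * (u₂ * w₁)) * A ^ 3 - (C * (u₁ * w₂) + D * (u₂ * w₂)) * B ^ 3) * he2)
      (by linear_combination e * e11 + (-(C * (u₁ * w₁) + D * (u₂ * w₁)) * C ^ 3 - (C * (u₁ * w₂) + D * (u₂ * w₂)) * D ^ 3) * he2)
    have hl := eig_rel hu h1 h2
    have hm := eig_rel (A := A ^ 3) (B := B ^ 3) (C := C ^ 3) (D := D ^ 3) (l := m) hw (by linear_combination h4) (by linear_combination h5)
    have hl' : l ^ 2 - (A + D) * l + 1 = 0 := by linear_combination hl - hdet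
    have hm' : m ^ 2 - (A + D) ^ 3 * m + 1 = 0 := by
      rw [hcube]
      linear_combination hm - hdet3
    have hl6 : l ^ 6 + 1 = (A + D) ^ 3 * l ^ 3 := by
      linear_combination ((l ^ 2 + 1) ^ 2 + (l ^ 2 + 1) * ((A + D) * l) + ((A + D) * l) ^ 2) * hl' - (l ^ 4 + l ^ 2) * h3
    have hprod : (m - l ^ 3) * (m * l ^ 3 - 1) = 0 := by
      linear_combination l ^ 3 * hm' - m * hl6
    have hl2 : l ^ 4 = e ∨ l ^ 2 = e := by
      rcases mul_eq_zero.mp hprod with h7 | h7
      · left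
        have : m = l ^ 3 := by linear_combination h7
        rw [← h6, this]
        ring
      · right
        have h8 : l ^ 2 * e = 1 := by
          rw [← h6]
          linear_combination h7
        linear_combination e * h8 - l ^ 2 * he2
    rcases he with rfl | rfl
    · left
      refine ⟨rfl, Or.inr ?_⟩
      have hl1 : l ^ 2 = 1 := by
        rcases hl2 with h7 | h7
        · have h8 : (l ^ 2 - 1) * (l ^ 2 + 1) = 0 := by linear_combination h7
          rcases mul_eq_zero.mp h8 with h9 | h9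
          · linear_combination h9
          · exact absurd (by linear_combination h9) (hneg l)
        · exact h7
      have h10 : (A + D) * l = 2 := by linear_combination hl1 - hl'
      have h11 : (A + D) ^ 2 * l ^ 2 = 4 := by
        have : (A + D) ^ 2 * l ^ 2 = ((A + D) * l) ^ 2 := by ring
        rw [this, h10]
        norm_num
      rw [hl1, mul_one] at h11
      rw [h11]
      linear_combination h3
    · exfalso
      rcases hl2 with h7 | h7
      · exact hneg (l ^ 2) (by linear_combination h7)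
      · exact hneg l h7
  · have E00 : e * (x * A ^ 3 + y * B ^ 3) = D * x - B * z := by
      linear_combination D * e00 - B * e10 + (-e * (x * A ^ 3 + y * B ^ 3)) * hdet
    have E01 : e * (x * C ^ 3 + y * D ^ 3) = D * y - B * w := by
      linear_combination D * e01 - B * e11 + (-e * (x * C ^ 3 + y * D ^ 3)) * hdet
    have E10 : e * (z * A ^ 3 + w * B ^ 3) = -C * x + A * z := by
      linear_combination A * e10 - C * e00 + (-e * (z * A ^ 3 + w * B ^ 3)) * hdet
    have E11 : e * (z * C ^ 3 + w * D ^ 3) = -C * y + A * w := by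
      linear_combination A * e11 - C * e01 + (-e * (z * C ^ 3 + w * D ^ 3)) * hdet
    have key : (x * w - y * z) * (e * (A + D) ^ 3 - (A + D)) = 0 := by
      rw [hcube]
      linear_combination w * E00 - y * E10 - z * E01 + x * E11
    have key2 : e * (A + D) ^ 3 = A + D := sub_eq_zero.mp ((mul_eq_zero.mp key).resolve_left hd)
    rcases he with rfl | rfl
    · left
      refine ⟨rfl, ?_⟩
      have h8 : (A + D) * ((A + D) ^ 2 - 1) = 0 := by linear_combination key2
      rcases mul_eq_zero.mp h8 with h9 | h9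
      · exact Or.inl h9
      · exact Or.inr (by linear_combination h9)
    · right
      refine ⟨rfl, ?_⟩
      have h8 : (A + D) * ((A + D) ^ 2 + 1) = 0 := by linear_combination -key2
      rcases mul_eq_zero.mp h8 with h9 | h9
      · exact h9
      · exact absurd (by linear_combination h9) (hneg (A + D))

end Mat

end Cfsg.Agent.Lib.Ree
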