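import Cfsg.Agent.Lib.Ree.Spec

/-! Element orders of the affine group. -/

set_option autoImplicit false
set_option linter.unusedSimpArgs false
set_option linter.unusedVariables false
set_option linter.unusedSectionVars false

namespace Cfsg.Agent.Lib.Ree

open Matrix Cfsg.Agent.Lib.Chev

section Ord

variable {K : Type*} [Field K]

theorem sl_ch (g : SpecialLinearGroup (Fin 2) K) : g.1 * g.1 = (g.1 0 0 + g.1 1 1) • g.1 - 1 := by
  obtain ⟨A, B, C, D, hform, hd⟩ := sl_form g
  rw [hform]
  ext i j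
  fin_cases i <;> fin_cases j <;> simp [Matrix.mul_apply, Fin.sum_univ_two]
  · linear_combination -hd
  · ring
  · ring
  · linear_combination -hd

theorem sq_of_t (g : SpecialLinearGroup (Fin 2) K) (ht : g.1 0 0 + g.1 1 1 = 0) : g * g = -1 := by
  apply Subtype.ext
  rw [Matrix.SpecialLinearGroup.coe_mul, Matrix.SpecialLinearGroup.coe_neg, Matrix.SpecialLinearGroup.coe_one, sl_ch, ht]
  simp

theorem cube_of_t (g : SpecialLinearGroup (Fin 2) K) (ht : (g.1 0 0 + g.1 1 1) ^ 2 = 1) : g ^ 3 = 1 ∨ g ^ 3 = -1 := by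
  obtain ⟨t, hte⟩ : ∃ t, t = g.1 0 0 + g.1 1 1 := ⟨_, rfl⟩
  rw [← hte] at ht
  have h1 := sl_ch g
  rw [← hte] at h1
  have h2 : (g ^ 3).1 = -(t • (1 : Matrix (Fin 2) (Fin 2) K)) := by
    rw [pow_succ, pow_two, Matrix.SpecialLinearGroup.coe_mul, Matrix.SpecialLinearGroup.coe_mul, h1, Matrix.sub_mul, Matrix.smul_mul, h1, smul_sub,
      smul_smul, one_mul, ← pow_two, ht, one_smul]
    abel
  have h3 : (t - 1) * (t + 1) = 0 := by linear_combination ht
  rcases mul_eq_zero.mp h3 with h4 | h4
  · right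
    have : t = 1 := by linear_combination h4
    subst this
    apply Subtype.ext
    rw [h2, Matrix.SpecialLinearGroup.coe_neg, Matrix.SpecialLinearGroup.coe_one, one_smul]
  · left
    have : t = -1 := by linear_combination h4
    subst this
    apply Subtype.ext
    rw [h2, Matrix.SpecialLinearGroup.coe_one]
    simp

variable [CharP K 3]

/-- The element orders in `SL₂` of a finite field of characteristic `3`. -/
theorem sl_order [Fintype K] (hodd : Fintype.card K % 2 = 1) (g : SpecialLinearGroup (Fin 2) K) :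
    g ^ (Fintype.card K - 1) = 1 ∨ g ^ (Fintype.card K + 1) = 1 ∨ g ^ 3 = 1 ∨ g ^ 3 = -1 := by
  haveI : Fact (Nat.Prime 3) := ⟨Nat.prime_three⟩
  obtain ⟨n, -, hn⟩ := FiniteField.card K 3
  obtain ⟨t, hte⟩ : ∃ t, t = g.1 0 0 + g.1 1 1 := ⟨_, rfl⟩
  have hch := sl_ch g
  rw [← hte] at hch
  by_cases hD : t ^ 2 - 1 = 0
  · right; right
    apply cube_of_t
    rw [← hte]
    linear_combination hD
  obtain ⟨G, hG⟩ : ∃ G, G = g.1 := ⟨_, rfl⟩
  rw [← hG] at hch
  obtain ⟨tM, htM⟩ : ∃ tM : Matrix (Fin 2) (Fin 2) K, tM = t • 1 := ⟨_, rfl⟩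
  obtain ⟨h, hh⟩ : ∃ h, h = G + tM := ⟨_, rfl⟩
  have hcm : Commute h tM := by
    rw [htM]
    exact (Commute.one_right _).smul_right _
  have hG' : G = h - tM := by rw [hh]; abel
  have h3K : (3 : K) = 0 := three_K
  have hsq : h * h = (t ^ 2 - 1) • 1 := by
    have e1 : G * tM = t • G := by rw [htM, Matrix.mul_smul, mul_one]
    have e2 : tM * G = t • G := by rw [htM, Matrix.smul_mul, one_mul]
    have e3 : tM * tM = (t * t) • 1 := by rw [htM, Matrix.smul_mul, Matrix.mul_smul, one_mul, smul_smul]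
    rw [hh, Matrix.mul_add, Matrix.add_mul, Matrix.add_mul, hch, e1, e2, e3]
    ext i j
    simp only [Matrix.add_apply, Matrix.sub_apply, Matrix.smul_apply, smul_eq_mul]
    linear_combination (t * G i j) * h3K
  have hq : Fintype.card K = 2 * ((Fintype.card K - 1) / 2) + 1 := by omega
  obtain ⟨j, hj⟩ : ∃ j, j = (Fintype.card K - 1) / 2 := ⟨_, rfl⟩
  rw [← hj] at hq
  have hpowh : h ^ Fintype.card K = ((t ^ 2 - 1) ^ j) • h := by
    rw [hq, pow_succ, pow_mul, pow_two, hsq, smul_pow, one_pow, Matrix.smul_mul, one_mul]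
  have hpowt : tM ^ Fintype.card K = tM := by
    rw [htM, smul_pow, one_pow, FiniteField.pow_card]
  have hpowG : G ^ Fintype.card K = ((t ^ 2 - 1) ^ j) • h - tM := by
    rw [hG']
    conv_lhs => rw [hn]
    rw [sub_pow_char_pow_of_commute 3 (n : ℕ) hcm, ← hn, hpowh, hpowt]
  have hone : ((t ^ 2 - 1) ^ j) ^ 2 = 1 := by
    have h5 := FiniteField.pow_card_sub_one_eq_one (t ^ 2 - 1) hD
    have h6 : Fintype.card K - 1 = 2 * j := by omega
    rw [h6, mul_comm, pow_mul] at h5
    exact h5
  have h4 : (((t ^ 2 - 1) ^ j) - 1) * (((t ^ 2 - 1) ^ j) + 1) = 0 := by linear_combination hone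
  rcases mul_eq_zero.mp h4 with h5 | h5
  · left
    have h6 : (t ^ 2 - 1) ^ j = 1 := by linear_combination h5
    rw [h6, one_smul, ← hG'] at hpowG
    have hgq : g ^ Fintype.card K = g := by
      apply Subtype.ext
      rw [Matrix.SpecialLinearGroup.coe_pow, ← hG, hpowG]
    have h7 : Fintype.card K = (Fintype.card K - 1) + 1 := by omega
    rw [h7, pow_succ] at hgq
    simpa using hgq
  · right; left
    have h6 : (t ^ 2 - 1) ^ j = -1 := by linear_combination h5
    rw [h6, neg_one_smul] at hpowG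
    apply Subtype.ext
    rw [pow_succ, Matrix.SpecialLinearGroup.coe_mul, Matrix.SpecialLinearGroup.coe_pow, ← hG, hpowG, hh, Matrix.SpecialLinearGroup.coe_one]
    have e : (-(G + tM) - tM) = tM - G - (3 : K) • tM := by
      rw [show (3 : K) = 1 + 1 + 1 by norm_num, add_smul, add_smul, one_smul]
      abel
    rw [e, h3K, zero_smul, sub_zero, Matrix.sub_mul, hch, htM, Matrix.smul_mul, one_mul]
    abel

end Ord

section Act

variable {K : Type*} [Field K] (s : K →+* K)

/-- Faithfulness of the action. -/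
theorem yy_eq_one (hs1 : (2 : K) ≠ 0) {k : ℕ} {e : ℤˣ} {g : SpecialLinearGroup (Fin 2) K} (h : yy s k (e, g) = 1) :
    e = 1 ∧ (g = 1 ∨ g = -1) := by
  have key : ∀ M : Matrix (Fin 2) (Fin 2) K, (e : ℤ) • (g.1 * M * twM s g.1) = M := by
    intro M
    have h1 := yy_apply s k e g (fun _ => M) 0
    rw [h] at h1
    exact h1.symm
  obtain ⟨T, hT⟩ : ∃ T, T = twM s g.1 := ⟨_, rfl⟩
  rw [← hT] at key
  have hcomm : ∀ M : Matrix (Fin 2) (Fin 2) K, g.1 * M = M * g.1 := by
    intro M
    have h1 := key 1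
    have h2 := key M
    rw [mul_one] at h1
    have hi : (g⁻¹).1 * g.1 = 1 := by
      rw [← Matrix.SpecialLinearGroup.coe_mul, inv_mul_cancel, Matrix.SpecialLinearGroup.coe_one]
    have hTe : (e : ℤ) • T = (g⁻¹).1 := by
      calc (e : ℤ) • T = (g⁻¹).1 * ((e : ℤ) • (g.1 * T)) := by
            rw [Matrix.mul_smul, ← Matrix.mul_assoc, hi, one_mul]
        _ = (g⁻¹).1 := by rw [h1, mul_one]
    have h3 : T * g.1 = (e : ℤ) • (1 : Matrix (Fin 2) (Fin 2) K) := by
      have e1 : T = (e : ℤ) • (g⁻¹).1 := by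
        rw [← hTe, smul_smul, Int.units_coe_mul_self, one_smul]
      rw [e1, Matrix.smul_mul, hi]
    have h7 : (e : ℤ) • (g.1 * M * (T * g.1)) = M * g.1 := by
      rw [← Matrix.mul_assoc, ← Matrix.smul_mul, h2]
    rw [h3, Matrix.mul_smul, smul_smul, Int.units_coe_mul_self, one_smul, mul_one] at h7
    exact h7
  obtain ⟨A, B, C, D, hform, hd⟩ := sl_form g
  have h1 := hcomm !![1, 0; 0, 0]
  have h2 := hcomm !![0, 1; 0, 0]
  rw [hform] at h1 h2
  have e1 := congrFun (congrFun h1 0) 1
  have e2 := congrFun (congrFun h1 1) 0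
  have e3 := congrFun (congrFun h2 0) 1
  simp [Matrix.mul_apply, Fin.sum_univ_two] at e1 e2 e3
  have hB : B = 0 := e1.symm
  have hC : C = 0 := e2
  have hAD : A = D := e3
  subst hB hC hAD
  have h8 : (A - 1) * (A + 1) = 0 := by linear_combination hd
  have hg : g = 1 ∨ g = -1 := by
    rcases mul_eq_zero.mp h8 with h9 | h9
    · left
      have : A = 1 := by linear_combination h9
      subst this
      apply Subtype.ext
      rw [hform]
      ext i j
      fin_cases i <;> fin_cases j <;> simp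
    · right
      have : A = -1 := by linear_combination h9
      subst this
      apply Subtype.ext
      rw [hform, Matrix.SpecialLinearGroup.coe_neg]
      ext i j
      fin_cases i <;> fin_cases j <;> simp
  refine ⟨?_, hg⟩
  have h1 := key 1
  rw [hT] at h1
  rcases hg with rfl | rfl
  · rcases Int.units_eq_one_or e with rfl | rfl
    · rfl
    · exfalso
      rw [Matrix.SpecialLinearGroup.coe_one, twM_one] at h1
      simp at h1
      have h10 := congrFun (congrFun h1 0) 0
      simp at h10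
      apply hs1
      linear_combination -h10
  · rcases Int.units_eq_one_or e with rfl | rfl
    · rfl
    · exfalso
      rw [Matrix.SpecialLinearGroup.coe_neg, Matrix.SpecialLinearGroup.coe_one] at h1
      unfold twM at h1
      have h10 := congrFun (congrFun h1 0) 0
      simp [Matrix.mul_apply, Fin.sum_univ_two] at h10
      apply hs1
      linear_combination -h10

end Act

end Cfsg.Agent.Lib.Ree
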