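import Cfsg.Agent.Lib.Ree.Spec2

/-! Element orders of the affine group: the conclusion. -/

set_option autoImplicit false
set_option linter.unusedSimpArgs false
set_option linter.unusedVariables false
set_option linter.unusedSectionVars false

namespace Cfsg.Agent.Lib.Ree

open Matrix Cfsg.Agent.Lib.Chev

section Spec

variable {K : Type*} [Field K] [CharP K 3] [Fintype K] (s : K →+* K) (hs : ∀ x, s x = x ^ 3) (hq8 : Fintype.card K % 8 = 3)

/-- The group. -/
abbrev FF (k : ℕ) := AffG K (WW K k) (YY s k)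

theorem units_pow_even (e : ℤˣ) {n : ℕ} (hn : Even n) : e ^ n = 1 := by
  obtain ⟨m, rfl⟩ := hn
  rw [← two_mul, pow_mul, Int.units_sq, one_pow]

omit [Fintype K] in
theorem three_smul_WW {k : ℕ} (X : WW K k) : 3 • X = 0 := by
  funext i
  ext a b
  simp only [Pi.smul_apply, Matrix.smul_apply, Pi.zero_apply, Matrix.zero_apply, nsmul_eq_mul]
  have : ((3 : ℕ) : K) = 0 := by
    have := three_K (K := K)
    exact_mod_cast this
  rw [this, zero_mul]

omit [Fintype K] in
/-- A translation has order dividing three. -/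
theorem trans_cube {k : ℕ} (a : FF s k) (h : a.y = 1) : a ^ 3 = 1 := by
  apply AffG.one_of
  · rw [AffG.trans_pow a h, three_smul_WW]
  · rw [AffG.pow_y, h, one_pow]

include hs hq8 in
theorem neg_not_sq' (x : K) : x ^ 2 ≠ -1 := by
  intro hx
  have h1 : IsSquare (-1 : K) := ⟨x, by rw [← hx]; ring⟩
  have h2 := FiniteField.isSquare_neg_one_iff (F := K) |>.mp h1
  omega

include hq8 in
theorem two_ne' : (2 : K) ≠ 0 := by
  have h3 := three_K (K := K)
  intro h
  have : (1 : K) = 0 := by linear_combination h3 - h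
  exact one_ne_zero this

include hs hq8 in
/-- The orders of elements of the group. -/
theorem order_cases {k : ℕ} (f : FF s k) :
    orderOf f ∣ 6 ∨ orderOf f ∣ 9 ∨ orderOf f ∣ Fintype.card K - 1 ∨ orderOf f ∣ (Fintype.card K + 1) / 2 := by
  have h2ne : (2 : K) ≠ 0 := two_ne' hq8
  have hneg := neg_not_sq' s hs hq8
  obtain ⟨⟨e, g⟩, hy⟩ := yy_form s f.y
  by_cases fp : ∀ X : WW K k, ((f.y.1 : (Module.End K (WW K k))ˣ) : Module.End K (WW K k)) X = X → X = 0
  · have hodd : Fintype.card K % 2 = 1 := by omega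
    have key : ∀ n : ℕ, yy s k (e ^ n, g ^ n) = 1 → orderOf f ∣ n := by
      intro n hn
      apply orderOf_dvd_of_pow_eq_one
      apply AffG.pow_eq_one_of_fpf _ _ fp
      rw [hy, ← yy_pow]
      exact hn
    rcases sl_order hodd g with h | h | h | h
    · right; right; left
      apply key
      rw [h, units_pow_even e (n := Fintype.card K - 1) (by rw [Nat.even_iff]; omega)]
      exact yy_one s k
    · right; right; right
      apply key
      have hm : Even ((Fintype.card K + 1) / 2) := by rw [Nat.even_iff]; omega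
      rw [units_pow_even e hm]
      have h3 : g ^ ((Fintype.card K + 1) / 2) * g ^ ((Fintype.card K + 1) / 2) = 1 := by
        rw [← pow_add, ← h]
        congr 1
        omega
      rcases sq_one_SL h2ne _ h3 with h4 | h4
      · rw [h4]
        exact yy_one s k
      · rw [h4]
        exact yy_neg s h2ne k
    · left
      apply key
      have : g ^ 6 = 1 := by
        rw [show 6 = 3 * 2 by norm_num, pow_mul, h, one_pow]
      rw [this, units_pow_even e (n := 6) (by decide)]
      exact yy_one s k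
    · left
      apply key
      have : g ^ 6 = 1 := by
        rw [show 6 = 3 * 2 by norm_num, pow_mul, h]
        apply Subtype.ext
        simp [pow_two, Matrix.SpecialLinearGroup.coe_neg]
      rw [this, units_pow_even e (n := 6) (by decide)]
      exact yy_one s k
  · push Not at fp
    obtain ⟨X, hX, hX0⟩ := fp
    obtain ⟨i, hi⟩ : ∃ i, X i ≠ 0 := by
      by_contra hc
      push Not at hc
      exact hX0 (funext hc)
    have hXi : (e : ℤ) • (g.1 * X i * twM s g.1) = X i := by
      have h1 := congrFun hX i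
      rw [hy, yy_apply] at h1
      exact h1
    have hfix : ∃ e' : K, (e' = 1 ∨ e' = -1) ∧ e' • (g.1 * X i * twM s g.1) = X i ∧ (e' = 1 → e = 1) := by
      rcases Int.units_eq_one_or e with rfl | rfl
      · refine ⟨1, Or.inl rfl, ?_, fun _ => rfl⟩
        simpa using hXi
      · refine ⟨-1, Or.inr rfl, ?_, fun h => ?_⟩
        · simpa using hXi
        · exfalso
          apply h2ne
          linear_combination -h
    obtain ⟨e', he', hfix', hee⟩ := hfix
    have hsix : g.1 0 0 + g.1 1 1 = 0 → orderOf f ∣ 6 := by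
      intro ht
      have h1 := sq_of_t g ht
      have h2 : (f ^ 2).y = 1 := by
        rw [AffG.pow_y, hy, ← yy_pow, Prod.pow_mk, units_pow_even e (n := 2) (by decide), pow_two, h1]
        exact yy_neg s h2ne k
      have h3 := trans_cube s (f ^ 2) h2
      apply orderOf_dvd_of_pow_eq_one
      rw [show 6 = 2 * 3 by norm_num, pow_mul, h3]
    rcases fix_main s hs three_K hneg g he' hi hfix' with ⟨h1, h2 | h2⟩ | ⟨h1, h2⟩
    · left
      exact hsix h2
    · right; left
      have h3 := hee h1
      subst h3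
      have h4 : (f ^ 3).y = 1 := by
        rw [AffG.pow_y, hy, ← yy_pow, Prod.pow_mk, one_pow]
        rcases cube_of_t g h2 with h5 | h5
        · rw [h5]
          exact yy_one s k
        · rw [h5]
          exact yy_neg s h2ne k
      have h5 := trans_cube s (f ^ 3) h4
      apply orderOf_dvd_of_pow_eq_one
      rw [show 9 = 3 * 3 by norm_num, pow_mul, h5]
    · left
      exact hsix h2

omit [Fintype K] in
theorem up_cube : (SL2.Rel.upE (1 : K)) ^ 3 = 1 := by
  apply Subtype.ext
  rw [pow_succ, pow_two, Matrix.SpecialLinearGroup.coe_mul, Matrix.SpecialLinearGroup.coe_mul, Matrix.SpecialLinearGroup.coe_one]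
  show !![1, 1; 0, 1] * !![1, 1; 0, 1] * !![1, 1; 0, 1] = (1 : Matrix (Fin 2) (Fin 2) K)
  have h3 := three_K (K := K)
  ext i j
  fin_cases i <;> fin_cases j <;> simp [Matrix.mul_apply, Fin.sum_univ_two]
  linear_combination h3

omit [Fintype K] in
theorem up_sq_ne (h2 : (2 : K) ≠ 0) : ((SL2.Rel.upE (1 : K)) ^ 2 ≠ 1) ∧ ((SL2.Rel.upE (1 : K)) ^ 2 ≠ -1) := by
  have e : ((SL2.Rel.upE (1 : K)) ^ 2).1 0 1 = 2 := by
    rw [pow_two, Matrix.SpecialLinearGroup.coe_mul]
    show (!![1, 1; 0, 1] * !![1, 1; 0, 1] : Matrix (Fin 2) (Fin 2) K) 0 1 = 2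
    simp [Matrix.mul_apply, Fin.sum_univ_two]
    norm_num
  constructor
  · intro h
    rw [h] at e
    simp at e
    exact h2 e.symm
  · intro h
    rw [h, Matrix.SpecialLinearGroup.coe_neg] at e
    simp at e
    exact h2 e.symm

omit [Fintype K] in
/-- An element of order `6`. -/
theorem exists_ord6 (h2 : (2 : K) ≠ 0) (k : ℕ) : ∃ f : FF s k, orderOf f = 6 := by
  refine ⟨AffG.inrH (yy s k (-1, SL2.Rel.upE 1)), ?_⟩
  rw [AffG.order_inr]
  have hu3 := up_cube (K := K)
  obtain ⟨h3, h4⟩ := up_sq_ne h2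
  apply orderOf_eq_of_pow_and_pow_div_prime (by norm_num)
  · rw [← yy_pow, Prod.pow_mk, units_pow_even _ (n := 6) (by decide)]
    rw [show 6 = 3 * 2 by norm_num, pow_mul, hu3, one_pow]
    exact yy_one s k
  · intro p hp hd
    have hcases : p = 2 ∨ p = 3 := by
      have : p ≤ 6 := Nat.le_of_dvd (by norm_num) hd
      interval_cases p <;> first | omega | (exfalso; revert hp hd; decide)
    rcases hcases with rfl | rfl
    · rw [show 6 / 2 = 3 by norm_num, ← yy_pow, Prod.pow_mk, hu3]
      intro h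
      have := (yy_eq_one s h2 h).1
      revert this
      decide
    · rw [show 6 / 3 = 2 by norm_num, ← yy_pow, Prod.pow_mk]
      intro h
      rcases (yy_eq_one s h2 h).2 with h5 | h5
      · exact h3 h5
      · exact h4 h5

include hs in
omit [Fintype K] in
/-- An element of order `9`. -/
theorem exists_ord9 (h2 : (2 : K) ≠ 0) (k : ℕ) : ∃ f : FF s k, orderOf f = 9 := by
  haveI : Fact (Nat.Prime 3) := ⟨Nat.prime_three⟩
  have h3K := three_K (K := K)
  obtain ⟨f, hf⟩ : ∃ f : FF s k, f = ⟨fun _ => !![0, 0; 0, 1], yy s k (1, SL2.Rel.upE 1)⟩ := ⟨_, rfl⟩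
  have hu3 := up_cube (K := K)
  have hy3 : (f ^ 3).y = 1 := by
    rw [AffG.pow_y, hf, ← yy_pow, Prod.pow_mk, one_pow, hu3]
    exact yy_one s k
  have h9 := trans_cube s (f ^ 3) hy3
  have htw : twM s (SL2.Rel.upE (1 : K)).1 = !![1, 0; 1, 1] := by
    show (Matrix.map !![1, 1; 0, 1] s)ᵀ = _
    ext i j
    fin_cases i <;> fin_cases j <;> simp [hs]
  have hact : ∀ (X : WW K k) (i : Fin (k + 1)), ((f.y.1 : (Module.End K (WW K k))ˣ) : Module.End K (WW K k)) X i = !![1, 1; 0, 1] * X i * !![1, 0; 1, 1] := by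
    intro X i
    rw [hf]
    show ((1 : ℤˣ) : ℤ) • ((SL2.Rel.upE (1 : K)).1 * X i * twM s (SL2.Rel.upE (1 : K)).1) = _
    rw [htw]
    simp only [Units.val_one, one_smul]
    rfl
  have hv : f.v = fun _ => !![0, 0; 0, 1] := by rw [hf]
  refine ⟨f, ?_⟩
  have h39 : (9 : ℕ) = 3 ^ (1 + 1) := by norm_num
  rw [h39]
  apply orderOf_eq_prime_pow (p := 3) (n := 1)
  · rw [pow_one]
    intro h
    have h1 := congrArg AffG.v h
    rw [AffG.pow_succ_v, AffG.pow_succ_v, AffG.one_v] at h1
    have h5 : (f ^ 1).v = f.v := by rw [pow_one]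
    rw [h5, hv] at h1
    have h6 := congrFun h1 0
    simp only [Pi.add_apply, Pi.zero_apply] at h6
    rw [hact, Pi.add_apply, hact] at h6
    have h10 := congrFun (congrFun h6 0) 0
    simp [Matrix.mul_apply, Fin.sum_univ_two] at h10
    apply h2
    norm_num at h10
    linear_combination h10 - h3K
  · rw [show 3 ^ (1 + 1) = 3 * 3 by norm_num, pow_mul, h9]

end Spec

end Cfsg.Agent.Lib.Ree
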