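import Cfsg.Agent.Lib.Ree.Spec3

/-! Element orders of the affine group: the conclusion. -/

set_option autoImplicit false
set_option linter.unusedSimpArgs false
set_option linter.unusedVariables false
set_option linter.unusedSectionVars false

namespace Cfsg.Agent.Lib.Ree

open Matrix Cfsg.Agent.Lib.Chev

section Spec

variable {K : Type*} [Field K] [CharP K 3] [Fintype K] (s : K →+* K) (hs : ∀ x, s x = x ^ 3) (hq8 : Fintype.card K % 8 = 3)

omit [CharP K 3] in
instance finite_YY (k : ℕ) : Finite (YY s k) := by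
  classical
  haveI : Finite (SpecialLinearGroup (Fin 2) K) := Subtype.finite
  exact Finite.of_surjective (fun p => yy s k p) (fun y => by
    obtain ⟨p, hp⟩ := yy_form s y
    exact ⟨p, hp.symm⟩)

omit [CharP K 3] in
instance finite_FF (k : ℕ) : Finite (FF s k) := by
  haveI : Finite (WW K k) := inferInstance
  exact Finite.of_injective (fun a : FF s k => (a.v, a.y)) (fun a b h => by
    have h1 := congrArg Prod.fst h
    have h2 := congrArg Prod.snd h
    exact AffG.ext h1 h2)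

omit [Fintype K] [CharP K 3] in
theorem dE_pow (t : K) (ht : t ≠ 0) (n : ℕ) : ((SL2.Rel.dE t ht) ^ n).1 = !![t ^ n, 0; 0, t⁻¹ ^ n] := by
  induction n with
  | zero =>
    simp
    ext i j
    fin_cases i <;> fin_cases j <;> simp
  | succ n ih =>
    rw [pow_succ, Matrix.SpecialLinearGroup.coe_mul, ih]
    show !![t ^ n, 0; 0, t⁻¹ ^ n] * !![t, 0; 0, t⁻¹] = _
    ext i j
    fin_cases i <;> fin_cases j <;> simp [Matrix.mul_apply, Fin.sum_univ_two, pow_succ]

include hq8 in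
/-- An element of order `q - 1`. -/
theorem exists_ordq1 (hsq : ∀ u : Kˣ, (∃ v, u = v * v) ∨ (∃ v, u = -1 * (v * v))) (k : ℕ) :
    ∃ f : FF s k, orderOf f = Fintype.card K - 1 := by
  classical
  have h2 : (2 : K) ≠ 0 := two_ne' hq8
  obtain ⟨γ, hγ⟩ := IsCyclic.exists_generator (α := Kˣ)
  have hoγ : orderOf γ = Fintype.card K - 1 := by
    rw [orderOf_eq_card_of_forall_mem_zpowers hγ, Nat.card_eq_fintype_card, Fintype.card_units]
  have hpos : 0 < Fintype.card K - 1 := by omega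
  obtain ⟨v, hv⟩ : ∃ v : Kˣ, γ = -1 * (v * v) := by
    rcases hsq γ with ⟨v, hv⟩ | h
    · exfalso
      have h1 : γ ^ ((Fintype.card K - 1) / 2) = 1 := by
        rw [hv, ← pow_two, ← pow_mul]
        have h3 : 2 * ((Fintype.card K - 1) / 2) = Fintype.card K - 1 := by omega
        rw [h3, ← Fintype.card_units, pow_card_eq_one]
      have h4 := orderOf_dvd_of_pow_eq_one h1
      rw [hoγ] at h4
      have h5 := Nat.le_of_dvd (by omega) h4
      omega
    · exact h
  obtain ⟨y, hy⟩ : ∃ y, y = yy s k (-1, SL2.Rel.dE (v : K) v.ne_zero) := ⟨_, rfl⟩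
  refine ⟨AffG.inrH y, ?_⟩
  rw [AffG.order_inr]
  have hvq : (v : K) ^ (Fintype.card K - 1) = 1 := FiniteField.pow_card_sub_one_eq_one _ v.ne_zero
  apply Nat.dvd_antisymm
  · apply orderOf_dvd_of_pow_eq_one
    rw [hy, ← yy_pow, Prod.pow_mk, units_pow_even _ (n := Fintype.card K - 1) (by rw [Nat.even_iff]; omega)]
    have e : (SL2.Rel.dE (v : K) v.ne_zero) ^ (Fintype.card K - 1) = 1 := by
      apply Subtype.ext
      rw [dE_pow, hvq, inv_pow, hvq, inv_one, Matrix.SpecialLinearGroup.coe_one]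
      ext i j
      fin_cases i <;> fin_cases j <;> simp
    rw [e]
    exact yy_one s k
  · rw [← hoγ]
    apply orderOf_dvd_of_pow_eq_one
    have h1 := pow_orderOf_eq_one y
    rw [hy, ← yy_pow, Prod.pow_mk] at h1
    obtain ⟨h3, h4⟩ := yy_eq_one s h2 h1
    rw [← hy] at h3 h4
    obtain ⟨n, hn⟩ : ∃ n, n = orderOf y := ⟨_, rfl⟩
    rw [← hn] at h3 h4 ⊢
    have hev : Even n := by
      by_contra hodd
      rw [Nat.not_even_iff_odd] at hodd
      rw [hodd.neg_one_pow] at h3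
      revert h3
      decide
    have hsqv : (v : K) ^ n * (v : K) ^ n = 1 := by
      rcases h4 with h5 | h5
      · have h6 := congrFun (congrFun (congrArg Subtype.val h5) 0) 0
        rw [dE_pow] at h6
        simp at h6
        rw [h6, one_mul]
      · have h6 := congrFun (congrFun (congrArg Subtype.val h5) 0) 0
        rw [dE_pow, Matrix.SpecialLinearGroup.coe_neg] at h6
        simp at h6
        rw [h6]
        ring
    apply Units.ext
    rw [hv, Units.val_pow_eq_pow_val, Units.val_mul, Units.val_mul, Units.val_neg, Units.val_one, mul_pow, mul_pow, hev.neg_one_pow]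
    rw [one_mul]
    exact hsqv

/-- An element of order `2 w`. -/
theorem exists_ordw (h2 : (2 : K) ≠ 0) {w : ℕ} (hw : Odd w) {h : SpecialLinearGroup (Fin 2) K} (H1 : h ^ w = 1 ∨ h ^ w = -1)
    (H2 : ∀ n, (h ^ n = 1 ∨ h ^ n = -1) → w ∣ n) (k : ℕ) : ∃ f : FF s k, orderOf f = 2 * w := by
  obtain ⟨y, hy⟩ : ∃ y, y = yy s k (-1, h) := ⟨_, rfl⟩
  refine ⟨AffG.inrH y, ?_⟩
  rw [AffG.order_inr]
  apply Nat.dvd_antisymm
  · apply orderOf_dvd_of_pow_eq_one
    rw [hy, ← yy_pow, Prod.pow_mk, units_pow_even _ (n := 2 * w) (by simp)]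
    have e : h ^ (2 * w) = 1 := by
      rw [mul_comm, pow_mul]
      rcases H1 with h1 | h1
      · rw [h1, one_pow]
      · rw [h1]
        apply Subtype.ext
        simp [pow_two, Matrix.SpecialLinearGroup.coe_neg]
    rw [e]
    exact yy_one s k
  · have h1 := pow_orderOf_eq_one y
    rw [hy, ← yy_pow, Prod.pow_mk] at h1
    obtain ⟨h3, h4⟩ := yy_eq_one s h2 h1
    rw [← hy] at h3 h4
    have hev : 2 ∣ orderOf y := by
      rw [← even_iff_two_dvd]
      by_contra hodd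
      rw [Nat.not_even_iff_odd] at hodd
      rw [hodd.neg_one_pow] at h3
      revert h3
      decide
    exact Nat.Coprime.mul_dvd_of_dvd_of_dvd hw.coprime_two_right.symm hev (H2 _ h4)

end Spec

namespace Ctx3

variable {K : Type*} [Field K] [CharP K 3] [Fintype K] {f : K ≃+* K} {G : Type*} [Group G] [Finite G] {R : RD K f G} (D : Ctx3 R)

include D

/-- An element of `SL₂` of order `w` up to sign. -/
theorem exists_h_w : ∃ h : SpecialLinearGroup (Fin 2) K, (h ^ wq K = 1 ∨ h ^ wq K = -1) ∧ ∀ n, (h ^ n = 1 ∨ h ^ n = -1) → wq K ∣ n := by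
  have C := D.toCtx
  obtain ⟨x₀, hx, hd, hxa⟩ := C.exists_x₀
  have hcyc := C.O_cyc hx hd
  have hcard := (tors_card _ (C.x_cent hx hd).2 C.hw_odd (C.card_4w hx hd) (fun z _ hz => C.h4 hz)).1
  obtain ⟨z, hz⟩ := IsCyclic.exists_ofOrder_eq_natCard (α := tors _ (C.x_cent hx hd).2 (wq K))
  rw [hcard] at hz
  have hoz : orderOf z.1 = wq K := by
    rw [Subgroup.orderOf_coe, hz]
  have hzw := z.2.2
  have hza : z.1 * R.h (-1) = R.h (-1) * z.1 :=
    (C.x_cent hx hd).2 _ z.2.1 _ (Subgroup.mem_centralizer_singleton_iff.mpr hxa.symm)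
  obtain ⟨h, hh⟩ := D.lift_a hza
  have hodd := C.hw_odd
  have hz' : z.1 = D.L.φ h := by
    rcases hh with e | e
    · exact e
    · exfalso
      have hcm : Commute (R.h (-1)) (D.L.φ h) := D.L.a_φ h
      rw [e, hcm.mul_pow] at hzw
      have h1 : R.h (-1) ^ wq K = R.h (-1) := by
        obtain ⟨k, hk⟩ := hodd
        rw [hk, pow_succ, pow_mul, pow_two, D.a_sq', one_pow, one_mul]
      rw [h1, ← map_pow] at hzw
      have h2 : D.L.φ (h ^ wq K) = R.h (-1) := by
        have e2 : D.L.φ (h ^ wq K) = (R.h (-1))⁻¹ * (R.h (-1) * D.L.φ (h ^ wq K)) := by group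
        rw [e2, hzw, mul_one]
        exact inv_eq_of_mul_eq_one_left D.a_sq'
      exact D.L.a_not_φ _ h2
  refine ⟨h, ?_, ?_⟩
  · apply D.L.φ_ker
    rw [map_pow, ← hz']
    exact hzw
  · intro n hn
    rw [← hoz]
    apply orderOf_dvd_of_pow_eq_one
    rw [hz', ← map_pow]
    rcases hn with h1 | h1
    · rw [h1, map_one]
    · rw [h1]
      exact D.L.φ_neg_one

/-- The set of element orders of the affine group. -/
theorem spec_iff (s : K →+* K) (hs : ∀ x, s x = x ^ 3) (k d : ℕ) :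
    (∃ a : FF s k, orderOf a = d) ↔ (d ∣ 6 ∨ d ∣ 9 ∨ d ∣ Fintype.card K - 1 ∨ d ∣ (Fintype.card K + 1) / 2) := by
  have hq8 := D.toCtx.hq8
  have h2 : (2 : K) ≠ 0 := two_ne' hq8
  constructor
  · rintro ⟨a, rfl⟩
    exact order_cases s hs hq8 a
  · have key : ∀ N : ℕ, (∃ a : FF s k, orderOf a = N) → d ∣ N → ∃ a : FF s k, orderOf a = d := by
      rintro N ⟨a, rfl⟩ hd
      exact exists_pow_order a hd
    rintro (h | h | h | h)
    · exact key 6 (exists_ord6 s h2 k) h
    · exact key 9 (exists_ord9 s hs h2 k) h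
    · exact key _ (exists_ordq1 s hq8 D.hsq k) h
    · obtain ⟨b, hb1, hb2⟩ := D.exists_h_w
      have e : (Fintype.card K + 1) / 2 = 2 * wq K := by
        unfold wq
        omega
      rw [e] at h
      exact key _ (exists_ordw s h2 D.toCtx.hw_odd hb1 hb2 k) h

end Ctx3

theorem lcm_lc (a b c : ℕ) : Nat.lcm a (Nat.lcm b c) = Nat.lcm b (Nat.lcm a c) := by
  rw [← Nat.lcm_assoc, Nat.lcm_comm a b, Nat.lcm_assoc]

/-- Equality of the spectra of `F × G × G` and `G × G × G`. -/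
theorem spec_cube {F G : Type*} [Group F] [Group G] [Finite F] [Finite G] (hFG : ∀ a : F, ∃ g : G, orderOf g = orderOf a) (M₁ M₂ : ℕ)
    (h : ∀ g : G, (∃ a : F, orderOf a = orderOf g) ∨ orderOf g ∣ M₁ ∨ orderOf g ∣ M₂)
    (hM : ∀ d, (d ∣ M₁ ∨ d ∣ M₂) → ∃ g : G, orderOf g = d) :
    Set.range (orderOf : F × G × G → ℕ) = Set.range (orderOf : G × G × G → ℕ) := by
  have hform : ∀ (x y z : G), orderOf (x, y, z) = Nat.lcm (orderOf x) (Nat.lcm (orderOf y) (orderOf z)) := by
    intro x y z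
    rw [Prod.orderOf_mk, Prod.orderOf_mk]
  have hform2 : ∀ (x : F) (y z : G), orderOf (x, y, z) = Nat.lcm (orderOf x) (Nat.lcm (orderOf y) (orderOf z)) := by
    intro x y z
    rw [Prod.orderOf_mk, Prod.orderOf_mk]
  apply Set.eq_of_subset_of_subset
  · rintro _ ⟨⟨a, b, c⟩, rfl⟩
    obtain ⟨g, hg⟩ := hFG a
    exact ⟨(g, b, c), by rw [hform, hform2, hg]⟩
  · rintro _ ⟨⟨x, y, z⟩, rfl⟩
    rw [hform]
    obtain ⟨ox, hox⟩ : ∃ n, n = orderOf x := ⟨_, rfl⟩
    obtain ⟨oy, hoy⟩ : ∃ n, n = orderOf y := ⟨_, rfl⟩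
    obtain ⟨oz, hoz⟩ : ∃ n, n = orderOf z := ⟨_, rfl⟩
    rw [← hox, ← hoy, ← hoz]
    have hx := h x
    have hy := h y
    have hz := h z
    rw [← hox] at hx
    rw [← hoy] at hy
    rw [← hoz] at hz
    -- pairs dividing the same number
    have hpair : ∀ {u v w : ℕ} {M : ℕ}, (M = M₁ ∨ M = M₂) → u ∣ M → v ∣ M → (∃ t : G, orderOf t = w) →
        Nat.lcm (Nat.lcm u v) w ∈ Set.range (orderOf : F × G × G → ℕ) := by
      intro u v w M hMe hu hv ⟨t, ht⟩
      have hl : Nat.lcm u v ∣ M := Nat.lcm_dvd hu hv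
      obtain ⟨g, hg⟩ := hM (Nat.lcm u v) (by rcases hMe with rfl | rfl; exact Or.inl hl; exact Or.inr hl)
      exact ⟨(1, g, t), by rw [hform2, orderOf_one, hg, ht, Nat.lcm_one_left]⟩
    have ex : ∃ t : G, orderOf t = ox := ⟨x, hox.symm⟩
    have ey : ∃ t : G, orderOf t = oy := ⟨y, hoy.symm⟩
    have ez : ∃ t : G, orderOf t = oz := ⟨z, hoz.symm⟩
    rcases hx with ⟨a, ha⟩ | hx
    · exact ⟨(a, y, z), by rw [hform2, ha, ← hoy, ← hoz]⟩
    rcases hy with ⟨a, ha⟩ | hy
    · refine ⟨(a, x, z), ?_⟩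
      rw [hform2, ha, ← hox, ← hoz, lcm_lc]
    rcases hz with ⟨a, ha⟩ | hz
    · refine ⟨(a, x, y), ?_⟩
      rw [hform2, ha, ← hox, ← hoy, lcm_lc, Nat.lcm_comm oz oy]
    have exy : ∀ {M : ℕ}, (M = M₁ ∨ M = M₂) → ox ∣ M → oy ∣ M → Nat.lcm ox (Nat.lcm oy oz) ∈ Set.range (orderOf : F × G × G → ℕ) := by
      intro M hMe h1 h2
      rw [← Nat.lcm_assoc]
      exact hpair hMe h1 h2 ez
    have exz : ∀ {M : ℕ}, (M = M₁ ∨ M = M₂) → ox ∣ M → oz ∣ M → Nat.lcm ox (Nat.lcm oy oz) ∈ Set.range (orderOf : F × G × G → ℕ) := by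
      intro M hMe h1 h2
      rw [Nat.lcm_comm oy oz, ← Nat.lcm_assoc]
      exact hpair hMe h1 h2 ey
    have eyz : ∀ {M : ℕ}, (M = M₁ ∨ M = M₂) → oy ∣ M → oz ∣ M → Nat.lcm ox (Nat.lcm oy oz) ∈ Set.range (orderOf : F × G × G → ℕ) := by
      intro M hMe h1 h2
      rw [Nat.lcm_comm]
      exact hpair hMe h1 h2 ex
    rcases hx with hx | hx <;> rcases hy with hy | hy <;> rcases hz with hz | hz
    · exact exy (Or.inl rfl) hx hy
    · exact exy (Or.inl rfl) hx hy
    · exact exz (Or.inl rfl) hx hz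
    · exact eyz (Or.inr rfl) hy hz
    · exact eyz (Or.inl rfl) hy hz
    · exact exz (Or.inr rfl) hx hz
    · exact exy (Or.inr rfl) hx hy
    · exact exy (Or.inr rfl) hx hy

/-- A finite group in any universe has a copy in `Type`. -/
theorem exists_small (H' : Type*) [Group H'] [Finite H'] : ∃ (H : Type) (_ : Group H) (_ : Fintype H),
    Fintype.card H = Nat.card H' ∧ Set.range (orderOf : H → ℕ) = Set.range (orderOf : H' → ℕ) := by
  classical
  obtain ⟨n, ⟨e₀⟩⟩ := Finite.exists_equiv_fin H'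
  let e : H' ≃ {i : ℕ // i < n} := e₀.trans Fin.equivSubtype
  letI gr : Group {i : ℕ // i < n} := e.symm.group
  let me : {i : ℕ // i < n} ≃* H' := { e.symm with
    map_mul' := by
      intro a b
      show e.symm (e (e.symm a * e.symm b)) = _
      simp }
  letI fi : Fintype {i : ℕ // i < n} := Fintype.ofEquiv _ Fin.equivSubtype
  refine ⟨{i : ℕ // i < n}, gr, fi, ?_, ?_⟩
  · rw [Nat.card_congr e, Nat.card_eq_fintype_card]
  · ext d
    constructor
    · rintro ⟨a, rfl⟩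
      exact ⟨me a, me.orderOf_eq a⟩
    · rintro ⟨a, rfl⟩
      exact ⟨me.symm a, me.symm.orderOf_eq a⟩

end Cfsg.Agent.Lib.Ree
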